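/-
Strongly self-centralizing subgroups: elementary facts.
-/
import Cfsg.Agent.H4.BSW2

set_option autoImplicit false
set_option linter.unusedSectionVars false
set_option linter.style.haveILetI false

namespace Cfsg.Agent.SSC

open Cfsg.Agent.H4 Subgroup Cfsg.Agent.H11 Cfsg.Agent.H15 Classical

variable {G : Type*} [Group G] [Fintype G]

/-- strongly self-centralizing -/
def SS (A : Subgroup G) : Prop := ∀ a ∈ A, a ≠ 1 → centralizer ({a} : Set G) = A

/-- the index in the normalizer -/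
noncomputable abbrev aw (A : Subgroup G) : ℕ := A.relIndex (normalizer (A : Set G))

theorem card_norm (A : Subgroup G) : Nat.card (normalizer (A : Set G)) = Nat.card A * aw A :=
  (H22.card_mul_relIndex le_normalizer).symm

theorem nconj {A : Subgroup G} {g a : G} (hg : g ∈ normalizer (A : Set G)) (ha : a ∈ A) :
    g * a * g⁻¹ ∈ A := (mem_normalizer_iff.1 hg a).1 ha

theorem dvd_card_of_inv (S : Finset G) (hS : ∀ g ∈ S, ∀ x, x * g * x⁻¹ ∈ S) {d : ℕ}
    (hd : ∀ g ∈ S, d ∣ (centralizer ({g} : Set G)).index) : d ∣ S.card := by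
  have h1 := sum_eq_sum_conjClasses (G := G) (R := ℕ)
    (fun C => if ∃ g ∈ S, ConjClasses.mk g = C then 1 else 0)
  have h2 : ∀ g : G, (∃ g' ∈ S, ConjClasses.mk g' = ConjClasses.mk g) ↔ g ∈ S := fun g =>
    ⟨fun ⟨g', h1, h2⟩ => by
      obtain ⟨x, rfl⟩ := isConj_iff.1 (ConjClasses.mk_eq_mk_iff_isConj.1 h2)
      exact hS _ h1 x, fun h => ⟨g, h, rfl⟩⟩
  simp only [h2] at h1
  rw [Finset.sum_boole] at h1
  simp only [Finset.filter_mem_eq_inter, Finset.univ_inter, Nat.cast_id] at h1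
  rw [h1]
  refine Finset.dvd_sum fun C _ => ?_
  split_ifs with h3
  · obtain ⟨g, hg, rfl⟩ := h3
    rw [mul_one]
    refine (hd g hg).trans (dvd_of_eq ?_)
    rw [← H4.card_isConj_eq_index]
    exact natCard_congr_iff fun x => by
      rw [ConjClasses.mem_carrier_iff_mk_eq, ConjClasses.mk_eq_mk_iff_isConj, isConj_comm]
  · simp

theorem card_cls (g : G) :
    (Finset.univ.filter (IsConj g)).card = (centralizer ({g} : Set G)).index := by
  rw [← H4.card_isConj_eq_index, natCard_subtype_eq]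

theorem odd_index {t : G} (ht : orderOf t = 2)
    (hc : ∀ x y : G, orderOf x = 2 → orderOf y = 2 → IsConj x y) :
    Odd (centralizer ({t} : Set G)).index := by
  obtain ⟨P, hP⟩ := exists_sylow_mem (p := 2) (k := 1) ht
  obtain ⟨z, -, h1, h2⟩ := exists_orderOf_eq_centralizer_of_normalized P.isPGroup' P.isPGroup'
    (fun e => ne_one_of_orderOf_two ht (mem_bot.1 (e ▸ (hP : t ∈ (P : Subgroup G))))) le_normalizer
  rw [index_centralizer_of_isConj (hc t z ht h1), ← Nat.not_even_iff_odd, even_iff_two_dvd]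
  exact fun h3 => P.not_dvd_index (h3.trans (index_dvd_of_le fun x hx => mem_cent1.2 (h2 x hx)))

namespace SS

variable {A B : Subgroup G} (h : SS A)
include h

theorem mem {a g : G} (ha : a ∈ A) (h1 : a ≠ 1) (e : g * a = a * g) : g ∈ A :=
  h a ha h1 ▸ mem_cent1.2 e

theorem comm {a b : G} (ha : a ∈ A) (hb : b ∈ A) : a * b = b * a := by
  by_cases h1 : b = 1
  · simp [h1]
  · exact mem_cent1.1 ((h b hb h1).symm ▸ ha)

theorem ti : IsTI A := isTI_of_centralizer h

theorem card_conjSet : Nat.card (conjSet A) * (Nat.card A * aw A) = Nat.card G * (Nat.card A - 1) := by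
  rw [← card_norm, h.ti.card_conjSet]

theorem mem_conjSet_of_comm {x y : G} (h1 : x ≠ 1) (hy : y ∈ conjSet A) (e : x * y = y * x) :
    x ∈ conjSet A := by
  obtain ⟨h2, g, hg⟩ := hy
  exact ⟨h1, g, h.mem hg (conj_ne_one h2) (by rw [conj_mul, e, conj_mul])⟩

theorem card_cent {y : G} (hy : y ∈ conjSet A) :
    Nat.card (centralizer ({y} : Set G)) = Nat.card A := by
  obtain ⟨h2, g, hg⟩ := hy
  rw [card_centralizer_of_isConj (isConj_iff.2 ⟨g, rfl⟩), h _ hg (conj_ne_one h2)]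

theorem exists_sylow {p : ℕ} [hp : Fact p.Prime] (hd : p ∣ Nat.card A) :
    ∃ P : Sylow p G, (P : Subgroup G) ≤ A := by
  obtain ⟨a, ha⟩ := exists_prime_orderOf_dvd_card' p hd
  rw [← orderOf_coe] at ha
  have h1 : (a : G) ≠ 1 := fun e => hp.out.one_lt.ne' (by rw [← ha, e, orderOf_one])
  obtain ⟨P, hP⟩ := exists_sylow_mem (p := p) (k := 1) (x := (a : G)) (by rw [ha, pow_one])
  obtain ⟨z, -, h2, h3⟩ := exists_orderOf_eq_centralizer_of_normalized P.isPGroup' P.isPGroup'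
    (fun e => h1 (mem_bot.1 (e ▸ (hP : (a : G) ∈ (P : Subgroup G))))) le_normalizer
  have h4 : z ≠ 1 := fun e => hp.out.one_lt.ne' (by rw [← h2, e, orderOf_one])
  exact ⟨P, fun x hx => h.mem (h.mem a.2 h1 (h3 _ hP).symm) h4 (h3 x hx)⟩

theorem coprime_index : (Nat.card A).Coprime A.index := by
  refine Nat.coprime_of_dvd fun p hp h1 h2 => ?_
  haveI := Fact.mk hp
  obtain ⟨P, hP⟩ := h.exists_sylow h1
  exact P.not_dvd_index (h2.trans (index_dvd_of_le hP))

theorem mem_conjSet_of_prime {y : G} (hy : (orderOf y).Prime) (hd : orderOf y ∣ Nat.card A) :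
    y ∈ conjSet A := by
  haveI := Fact.mk hy
  obtain ⟨P, hP⟩ := h.exists_sylow hd
  obtain ⟨g, hg⟩ := exists_conj_mem_sylow P (x := y) (pow_one _).symm
  exact ⟨fun e => hy.one_lt.ne' (by rw [e, orderOf_one]), g, hP hg⟩

theorem coprime_cent {x : G} (h1 : x ≠ 1) (hx : x ∉ conjSet A) :
    (Nat.card (centralizer ({x} : Set G))).Coprime (Nat.card A) := by
  refine Nat.coprime_of_dvd fun r hr h2 h3 => ?_
  haveI := Fact.mk hr
  obtain ⟨y, hy⟩ := exists_prime_orderOf_dvd_card' r h2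
  rw [← orderOf_coe] at hy
  exact hx (h.mem_conjSet_of_comm h1 (h.mem_conjSet_of_prime (hy ▸ hr) (hy ▸ h3))
    (mem_cent1.1 y.2).symm)

theorem coprime (hB : SS B) (hn : ∀ g : G, A.map (MulAut.conj g).toMonoidHom ≠ B) :
    (Nat.card A).Coprime (Nat.card B) := by
  refine Nat.coprime_of_dvd fun p hp h1 h2 => ?_
  haveI := Fact.mk hp
  obtain ⟨a, ha⟩ := exists_prime_orderOf_dvd_card' p h1
  rw [← orderOf_coe] at ha
  obtain ⟨h3, g, hg⟩ := hB.mem_conjSet_of_prime (y := (a : G)) (ha ▸ hp) (ha ▸ h2)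
  exact hn g (by rw [← hB _ hg (conj_ne_one h3), centralizer_conj, h _ a.2 h3])

theorem aw_dvd : aw A ∣ Nat.card A - 1 :=
  relIndex_dvd_card_sub_one _ A A le_rfl fun _ _ _ hk h1 e => h.mem hk h1 e

omit h in
theorem nmem_of_coprime {x : G} (hx : x ∈ conjSet A) (hc : (Nat.card A).Coprime (Nat.card B)) :
    x ∉ conjSet B := fun ⟨h1, g, hg⟩ => by
  obtain ⟨-, k, hk⟩ := hx
  have h2 := orderOf_dvd_natCard A hk
  have h3 := orderOf_dvd_natCard B hg
  rw [orderOf_conj] at h2 h3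
  exact h1 (orderOf_eq_one_iff.1 (Nat.eq_one_of_dvd_coprimes hc h2 h3))

omit h in
theorem nmem_of_dvd {x : G} {p : ℕ} (hp : p.Prime) (hx : p ∣ orderOf x) (hc : ¬ p ∣ Nat.card A) :
    x ∉ conjSet A := fun ⟨_, g, hg⟩ => by
  have h3 := orderOf_dvd_natCard A hg
  rw [orderOf_conj] at h3
  exact hc (hx.trans h3)

variable (ho : Odd (Nat.card A))
include ho

omit h in
theorem inv_nmem {u : G} (hu : orderOf u = 2) : u ∉ A := fun e =>
  Nat.not_even_iff_odd.2 ho (even_card_of_invol e hu)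

theorem inverts {u : G} (hu : orderOf u = 2) (hN : u ∈ normalizer (A : Set G)) {a : G}
    (ha : a ∈ A) : u * a * u⁻¹ = a⁻¹ := by
  have h1 := nconj hN ha
  have h2 := mul_self_of_orderOf_two hu
  have h3 := inv_eq_of_orderOf_two hu
  by_contra h4
  refine inv_nmem ho hu (h.mem (mul_mem ha h1) (fun e => h4 (eq_inv_of_mul_eq_one_right e)) ?_)
  rw [← mul_inv_eq_iff_eq_mul, ← conj_mul, show u * (u * a * u⁻¹) * u⁻¹ = a by
    rw [h3]; simp [mul_assoc, ← mul_assoc u u, h2], h.comm ha h1]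

theorem mul_mem_of_inv (hA : A ≠ ⊥) {u v : G} (hu : orderOf u = 2) (hN : u ∈ normalizer (A : Set G))
    (hv : orderOf v = 2) (hN' : v ∈ normalizer (A : Set G)) : v * u ∈ A := by
  obtain ⟨⟨a, ha⟩, h1⟩ := (ne_bot_iff_exists_ne_one).1 hA
  refine h.mem ha (fun e => h1 (Subtype.ext e)) (mul_inv_eq_iff_eq_mul.1 ?_)
  rw [show v * u * a * (v * u)⁻¹ = v * (u * a * u⁻¹) * v⁻¹ by group, h.inverts ho hu hN ha,
    h.inverts ho hv hN' (inv_mem ha), inv_inv]

theorem out_ord {u g : G} (hu : orderOf u = 2) (hN : u ∈ normalizer (A : Set G))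
    (hg : g * u ∈ A) : orderOf g = 2 := by
  have h2 := mul_self_of_orderOf_two hu
  have h3 := h.inverts ho hu hN hg
  refine orderOf_two_of (fun e => inv_nmem ho hu (by simpa [e] using hg)) ?_
  rw [inv_eq_of_orderOf_two hu] at h3
  calc g * g = g * u * (u * (g * u) * u) := by simp [mul_assoc, ← mul_assoc u u, h2]
    _ = 1 := by rw [h3, mul_inv_cancel]

omit h ho in
theorem card_out (u : G) : Nat.card {g : G // g * u ∈ A} = Nat.card A :=
  Nat.card_congr ((Equiv.mulRight u).subtypeEquiv fun _ => Iff.rfl)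

omit ho in
theorem norm_of_inv {v x : G} (hx : x ∈ A) (h1 : x ≠ 1) (e : v * x * v⁻¹ = x⁻¹) :
    v ∈ normalizer (A : Set G) := h.ti v x h1 hx (e ▸ inv_mem hx)

theorem invPairs_eq {u x : G} (hu : orderOf u = 2) (hN : u ∈ normalizer (A : Set G))
    (hx : x ∈ conjSet A) : invPairs x = Nat.card A := by
  obtain ⟨h1, g, hx⟩ := hx
  rw [← invPairs_conj g]
  replace h1 := conj_ne_one (x := g) h1
  generalize g * x * g⁻¹ = x at hx h1
  have hA : A ≠ ⊥ := fun e => h1 (mem_bot.1 (e ▸ hx))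
  rw [← card_out (A := A) u]
  refine Nat.card_congr ⟨fun p => ⟨p.1.1, ?_⟩, fun g => ⟨(g.1, g.1 * x), h.out_ord ho hu hN g.2, ?_, ?_⟩,
    ?_, fun _ => rfl⟩
  · obtain ⟨⟨v, w⟩, hv, hw, rfl⟩ := p
    exact h.mul_mem_of_inv ho hA hu hN hv (h.norm_of_inv hx h1
      (invol_inverts_left (mul_self_of_orderOf_two hv) (mul_self_of_orderOf_two hw)))
  · refine h.out_ord ho hu hN ?_
    rw [show g.1 * x * u = g.1 * u * (u⁻¹ * x * u⁻¹⁻¹) by group]
    exact mul_mem g.2 (nconj (inv_mem hN) hx)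
  · simp only [← mul_assoc, mul_self_of_orderOf_two (h.out_ord ho hu hN g.2), one_mul]
  · rintro ⟨⟨v, w⟩, hv, hw, rfl⟩
    simp only [← mul_assoc, mul_self_of_orderOf_two hv, one_mul]

omit h in
theorem exists_inv (he : Even (aw A)) : ∃ u, orderOf u = 2 ∧ u ∈ normalizer (A : Set G) := by
  obtain ⟨u, hu⟩ := exists_prime_orderOf_dvd_card' (G := normalizer (A : Set G)) 2
    (by rw [card_norm]; exact he.two_dvd.mul_left _)
  exact ⟨u, by rwa [orderOf_coe], u.2⟩

theorem card_cent_inf (hA : A ≠ ⊥) {u : G} (hu : orderOf u = 2) (hN : u ∈ normalizer (A : Set G)) :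
    Nat.card ↥(normalizer (A : Set G) ⊓ centralizer {u}) = aw A := by
  have h1 := H22.card_mul_card_of_prod (G := normalizer (A : Set G)) (K := A)
    (H := normalizer (A : Set G) ⊓ centralizer {u}) le_normalizer inf_le_left fun g hg => by
      have h1 := h.mul_mem_of_inv ho hA hu hN ((orderOf_conj g u).trans hu)
        (mul_mem (mul_mem hg hN) (inv_mem hg))
      obtain ⟨k, hk⟩ := odd_orderOf_of_odd_card ho h1
      have h2 := pow_mem h1 (k + 1)
      have h3 : (g * u * g⁻¹ * u) ^ (k + 1) * (g * u * g⁻¹ * u) ^ (k + 1) = g * u * g⁻¹ * u := by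
        rw [← pow_add, show k + 1 + (k + 1) = 2 * k + 1 + 1 by ring, pow_succ, ← hk,
          pow_orderOf_eq_one, one_mul]
      generalize (g * u * g⁻¹ * u) ^ (k + 1) = a at h2 h3
      refine ⟨a, h2, a⁻¹ * g, mem_inf.2 ⟨mul_mem (inv_mem (le_normalizer h2)) hg, mem_cent1.2 ?_⟩,
        by group⟩
      have h4 := h.inverts ho hu hN (inv_mem h2)
      rw [inv_inv, mul_inv_eq_iff_eq_mul] at h4
      have h5 : g * u = a * a * u * g := by
        rw [h3]; simp [mul_assoc, ← mul_assoc u u, mul_self_of_orderOf_two hu]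
      rw [mul_assoc, h5, ← mul_assoc u, h4]; group
  have h2 : A ⊓ (normalizer (A : Set G) ⊓ centralizer {u}) = ⊥ := by
    rw [eq_bot_iff]
    rintro a ⟨ha, -, h2⟩
    by_contra h3
    exact inv_nmem ho hu (h.mem ha h3 (mem_cent1.1 h2).symm)
  rw [h2, card_bot, one_mul, card_norm] at h1
  exact Nat.eq_of_mul_eq_mul_left Nat.card_pos h1

theorem aw_dvd_cent (hA : A ≠ ⊥) {u : G} (hu : orderOf u = 2) (hN : u ∈ normalizer (A : Set G)) :
    aw A ∣ Nat.card (centralizer ({u} : Set G)) :=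
  h.card_cent_inf ho hA hu hN ▸ card_dvd_of_le inf_le_right

theorem exists_four (hA : A ≠ ⊥) (h4 : aw A = 4) : ∃ f : G, orderOf f = 4 := by
  obtain ⟨u, hu, hN⟩ := exists_inv ho (h4 ▸ by decide)
  have h1 := h.card_cent_inf ho hA hu hN
  rw [h4] at h1
  by_contra h2
  push Not at h2
  have h3 : ∀ g ∈ normalizer (A : Set G) ⊓ centralizer {u}, g = 1 ∨ g = u := fun g hg => by
    have h3 := orderOf_dvd_natCard _ hg
    rw [h1] at h3
    have h5 := h2 g
    have h6 := Nat.le_of_dvd (by norm_num) h3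
    have h7 : orderOf g = 1 ∨ orderOf g = 2 := by
      generalize orderOf g = n at *
      interval_cases n <;> simp_all
    refine h7.imp orderOf_eq_one_iff.1 fun h7 => by_contra fun h8 => ?_
    refine inv_nmem ho hu (h.mem (h.mul_mem_of_inv ho hA hu hN h7 hg.1) (fun e => h8 ?_) ?_)
    · rw [eq_inv_of_mul_eq_one_left e, inv_eq_of_orderOf_two hu]
    · rw [← mul_assoc, ← mem_cent1.1 hg.2]
  have h5 : Nat.card ↥(normalizer (A : Set G) ⊓ centralizer {u}) ≤ ({1, u} : Finset G).card := by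
    rw [← H22.card_fs]
    exact Finset.card_le_card fun g hg => by simpa using h3 g (H22.mem_fs.1 hg)
  have h6 := Finset.card_le_two (a := (1 : G)) (b := u)
  omega

end SS

end Cfsg.Agent.SSC
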