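/-
Strongly self-centralizing subgroups: exceptional class functions.
-/
import Cfsg.Agent.SSC.A

set_option autoImplicit false
set_option linter.unusedSectionVars false
set_option linter.style.haveILetI false

namespace Cfsg.Agent.SSC

open Cfsg.Agent.H4 Subgroup Cfsg.Agent.H11 Cfsg.Agent.H15 Cfsg.Agent.H22 Classical
open scoped ComplexConjugate

variable {G : Type*} [Group G] [Fintype G] {φ α β γ l m : G → ℂ}

/-- the exceptional class functions of `A` -/
noncomputable def TT (A : Subgroup G) : Finset (G → ℂ) :=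
  ((Irr A).erase (one (A : Set G))).image (bt A)

theorem mem_TT {A : Subgroup G} : β ∈ TT A ↔ ∃ l ∈ Irr A, l ≠ one (A : Set G) ∧ bt A l = β := by
  simp only [TT, Finset.mem_image, Finset.mem_erase]
  exact ⟨fun ⟨l, h1, h2⟩ => ⟨l, h1.2, h1.1, h2⟩, fun ⟨l, h1, h2, h3⟩ => ⟨l, ⟨h2, h1⟩, h3⟩⟩

theorem TT_VC {A : Subgroup G} (hβ : β ∈ TT A) : β ∈ VC ⊤ := by
  obtain ⟨l, hl, -, rfl⟩ := mem_TT.1 hβ
  exact bt_VC hl

theorem one_dot_TT {A : Subgroup G} (hβ : β ∈ TT A) : dot ⊤ 1 β = 0 := by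
  obtain ⟨l, hl, h1, rfl⟩ := mem_TT.1 hβ
  rw [bt, dot_sub_right, th_dot_one hl h1, Dirr.dot_self one_Dirr, sub_self]

theorem TT_of_nmem {A : Subgroup G} (hβ : β ∈ TT A) {x : G} (h1 : x ≠ 1) (hx : x ∉ conjSet A) :
    β x = -1 := by
  obtain ⟨l, -, -, rfl⟩ := mem_TT.1 hβ
  simp [bt, th_of_nmem h1 hx]

theorem aut_TT {A : Subgroup G} (hβ : β ∈ TT A) (σ : ℂ →+* ℂ) : aut σ β ∈ TT A := by
  obtain ⟨l, hl, h1, rfl⟩ := mem_TT.1 hβ
  refine mem_TT.2 ⟨aut σ l, Irr.aut σ hl, fun e => h1 ((Irr.aut_eq_one_iff σ hl).1 e), ?_⟩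
  rw [bt, bt, th, th, map_sub (aut σ), aut_Ind, map_sub (aut σ), aut_one]
  congr 1
  ext x; simp [aut_apply]

theorem cI_Dirr {t : G} (ht : orderOf t = 2)
    (hc : ∀ x y : G, orderOf x = 2 → orderOf y = 2 → IsConj x y) (hα : α ∈ Dirr ⊤) :
    dot ⊤ α (cI G) * (Nat.card (centralizer ({t} : Set G)) * α 1) =
      (centralizer ({t} : Set G)).index * α t ^ 2 := by
  obtain ⟨e, he, χ, hχ, rfl⟩ := Dirr.exists_sign hα
  have h1 : Finset.univ.filter (orderOf · = 2) = Finset.univ.filter (IsConj t) :=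
    Finset.filter_congr fun x _ => ⟨hc t x ht, fun e => (orderOf_eq_of_isConj e).symm.trans ht⟩
  have h2 := Irr.one_ne hχ
  have h3 := cardC_ne (centralizer ({t} : Set G))
  have h4 : ((centralizer ({t} : Set G)).index : ℂ) ≠ 0 := Nat.cast_ne_zero.2 index_ne_zero_of_finite
  rw [dot_smul_left, dot_cI, h1, Cfsg.IsIrrCharacter.sum_class_class (mem_Irr_top.1 hχ),
    ← card_mul_index (centralizer ({t} : Set G))]
  rcases he with rfl | rfl <;> simp <;> field_simp

namespace SS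

variable {A B : Subgroup G} (h : SS A)
include h

theorem lin (hl : l ∈ Irr A) : l 1 = 1 := Irr.lin_of_comm hl fun _ ha _ hb => h.comm ha hb

theorem card_Irr : (Irr A).card = Nat.card A := card_Irr_of_comm fun _ ha _ hb => h.comm ha hb

theorem th_one (hl : l ∈ Irr A) : th A l 1 = 0 := by
  rw [th, Ind_apply_one_eq_zero]; simp [h.lin hl]

theorem TT_one (hβ : β ∈ TT A) : β 1 = -1 := by
  obtain ⟨l, hl, -, rfl⟩ := mem_TT.1 hβ
  simp [bt, h.th_one hl]

theorem th_apply (hl : l ∈ Irr A) {y : G} (hy : y ∈ A) : th A l y =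
    ((Nat.card A : ℂ)⁻¹ • ∑ x ∈ fs (normalizer (A : Set G) : Set G),
      (one (A : Set G) - cjf x l)) y := by
  by_cases h1 : y = 1
  · subst h1
    rw [h.th_one hl]
    simp [Finset.sum_apply, cjf_apply, h.lin hl]
  rw [th, H22.Ind_apply, Pi.smul_apply, Finset.sum_apply, smul_eq_mul]
  congr 1
  rw [← Finset.sum_subset (fs_mono (A := normalizer (A : Set G)) fun _ _ => mem_top _)]
  · refine Finset.sum_congr rfl fun x hx => ?_
    have h2 : x⁻¹ * y * x ∈ A := by simpa using nconj (inv_mem (mem_fs.1 hx)) hy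
    rw [Res_of_mem _ h2]
    simp [cjf_apply, one_of_mem, h2, hy]
  · intro x _ hx
    refine Res_of_not_mem _ fun e => hx (mem_fs.2 ?_)
    simpa using inv_mem (h.ti x⁻¹ y h1 hy (by simpa using e))

omit h in
theorem cjf_ne (hl : l ≠ one (A : Set G)) {x : G} (hx : x ∈ normalizer (A : Set G)) :
    cjf x l ≠ one (A : Set G) := fun e =>
  hl (cjf_injective x (e.trans (cjf_one_set hx).symm))

theorem th_dot (hl : l ∈ Irr A) (hm : m ∈ Irr A) (h1 : l ≠ one (A : Set G))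
    (h2 : m ≠ one (A : Set G)) : dot ⊤ (th A l) (th A m) = aw A + (Nat.card A : ℂ)⁻¹ *
      ((fs (normalizer (A : Set G) : Set G)).filter fun x => cjf x l = m).card := by
  have h4 := one_mem_Irr A
  rw [dot_th (VC.inv (th_VC hl)) hm, dot_congr (fun y hy => h.th_apply hl hy) fun _ _ => rfl,
    dot_congr (ψ := m) (fun y hy => h.th_apply hl hy) fun _ _ => rfl, dot_smul_left, dot_smul_left,
    dot_sum_left, dot_sum_left, ← mul_sub, ← Finset.sum_sub_distrib,
    Finset.sum_congr rfl (g := fun x => 1 + if cjf x l = m then 1 else 0) fun x hx => by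
      have h5 := Irr.cjf hl (mem_fs.1 hx)
      simp only [dot_sub_left, dot_one_one, Irr.dot_ne h5 h4 (cjf_ne h1 (mem_fs.1 hx)),
        Irr.dot_ne h4 hm h2.symm, Irr.dot_ite h5 hm]
      ring]
  rw [Finset.sum_add_distrib, Finset.sum_boole, Finset.sum_const, card_fs, card_norm]
  have := cardC_ne A
  simp only [nsmul_eq_mul, mul_one, Nat.cast_mul]
  field_simp

theorem mem_of_fix (hl : l ∈ Irr A) (h1 : l ≠ one (A : Set G)) {x : G}
    (hx : x ∈ normalizer (A : Set G)) (e : cjf x l = l) : x ∈ A := by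
  by_contra h2
  have hc := Irr.char hl
  let f : A → A := fun a => ⟨x⁻¹ * a * x * (a : G)⁻¹,
    mul_mem (by simpa using nconj (inv_mem hx) a.2) (inv_mem a.2)⟩
  have hf : Function.Injective f := fun a b e => by
    have h3 : x⁻¹ * a * x * (a : G)⁻¹ = x⁻¹ * b * x * (b : G)⁻¹ := congrArg Subtype.val e
    by_contra h4
    refine h2 (h.mem (mul_mem (inv_mem b.2) a.2) (fun e => h4 (Subtype.ext (inv_mul_eq_one.1 e).symm)) ?_)
    calc x * ((b : G)⁻¹ * a) = (b : G)⁻¹ * x * (x⁻¹ * b * x * (b : G)⁻¹) * a := by group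
      _ = _ := by rw [← h3]; group
  refine h1 (ext_supp (Irr.supp hl) (one_supp _) fun y hy => ?_)
  obtain ⟨a, ha⟩ := Finite.surjective_of_injective hf ⟨y, hy⟩
  have h3 : x⁻¹ * a * x * (a : G)⁻¹ = y := congrArg Subtype.val ha
  have h4 : x⁻¹ * a * x ∈ A := by simpa using nconj (inv_mem hx) a.2
  rw [one_of_mem hy, ← h3, hc.map_mul (h.lin hl) h4 (inv_mem a.2), ← cjf_apply x l, e,
    ← hc.map_mul (h.lin hl) a.2 (inv_mem a.2), mul_inv_cancel, h.lin hl]

omit h in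
theorem bt_dot_th (hl : l ∈ Irr A) (h1 : l ≠ one (A : Set G)) (hm : m ∈ Irr B)
    (h2 : m ≠ one (B : Set G)) : dot ⊤ (bt A l) (bt B m) = dot ⊤ (th A l) (th B m) - 1 := by
  simp only [bt, dot_sub_left, dot_sub_right, th_dot_one hm h2,
    VC.dot_comm (th_VC hl) (Dirr.VC one_Dirr), th_dot_one hl h1, Dirr.dot_self one_Dirr]
  ring

theorem bt_dot (hl : l ∈ Irr A) (hm : m ∈ Irr A) (h1 : l ≠ one (A : Set G))
    (h2 : m ≠ one (A : Set G)) :
    dot ⊤ (bt A l) (bt A m) = aw A - 1 + if bt A l = bt A m then 1 else 0 := by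
  split_ifs with h3
  · rw [← h3, bt_dot_th hl h1 hl h1, h.th_dot hl hl h1 h1,
      show (fs (normalizer (A : Set G) : Set G)).filter (fun x => cjf x l = l) = fs (A : Set G) by
        ext x
        rw [Finset.mem_filter, mem_fs, mem_fs]
        exact ⟨fun e => h.mem_of_fix hl h1 e.1 e.2, fun e => ⟨le_normalizer e, (Irr.inv hl).cjf_eq e⟩⟩,
      card_fs, inv_mul_cancel₀ (cardC_ne A)]
    ring
  · rw [bt_dot_th hl h1 hm h2, h.th_dot hl hm h1 h2, Finset.filter_false_of_mem fun x hx e => h3 ?_]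
    · simp
    rw [bt, bt, th, th, ← e, ← Ind_cjf (g := x) (mem_top x) (mem_fs.1 hx), map_sub,
      cjf_one_set (mem_fs.1 hx)]

theorem TT_dot (hβ : β ∈ TT A) (hγ : γ ∈ TT A) :
    dot ⊤ β γ = aw A - 1 + if β = γ then 1 else 0 := by
  obtain ⟨l, hl, h1, rfl⟩ := mem_TT.1 hβ
  obtain ⟨m, hm, h2, rfl⟩ := mem_TT.1 hγ
  exact h.bt_dot hl hm h1 h2

theorem card_TT : (TT A).card * aw A + 1 = Nat.card A := by
  have h1 : ∀ β ∈ TT A, (((Irr A).erase (one (A : Set G))).filter fun m => bt A m = β).card = aw A :=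
    fun β hβ => by
    obtain ⟨l, hl, h1, rfl⟩ := mem_TT.1 hβ
    have h2 := Finset.card_eq_sum_card_fiberwise (f := fun x => cjf x l)
      (s := fs (normalizer (A : Set G) : Set G)) (t := (Irr A).erase (one (A : Set G)))
      fun x hx => Finset.mem_coe.2 (Finset.mem_erase.2
        ⟨cjf_ne h1 (mem_fs.1 hx), Irr.cjf hl (mem_fs.1 hx)⟩)
    rw [card_fs, card_norm] at h2
    have h3 : ∀ m ∈ (Irr A).erase (one (A : Set G)),
        (((fs (normalizer (A : Set G) : Set G)).filter fun x => cjf x l = m).card : ℂ) =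
          Nat.card A * if bt A m = bt A l then 1 else 0 := fun m hm => by
      obtain ⟨h3, hm⟩ := Finset.mem_erase.1 hm
      have h4 := h.bt_dot hl hm h1 h3
      rw [bt_dot_th hl h1 hm h3, h.th_dot hl hm h1 h3] at h4
      have h5 := cardC_ne A
      rw [← inv_mul_eq_iff_eq_mul₀ h5]
      simp only [eq_comm (a := bt A m)]
      linear_combination h4
    have h4 := congrArg (Nat.cast (R := ℂ)) h2
    rw [Nat.cast_sum, Finset.sum_congr rfl h3, ← Finset.mul_sum, Finset.sum_boole, Nat.cast_mul] at h4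
    exact_mod_cast (mul_left_cancel₀ (cardC_ne A) h4).symm
  have h2 := Finset.card_eq_sum_card_image (bt A) ((Irr A).erase (one (A : Set G)))
  rw [← TT, Finset.sum_congr rfl h1, Finset.sum_const, Finset.card_erase_of_mem (one_mem_Irr A),
    h.card_Irr, smul_eq_mul] at h2
  have := Nat.card_pos (α := A)
  omega

theorem TT_cross (hB : SS B) (hc : (Nat.card A).Coprime (Nat.card B)) (hβ : β ∈ TT A)
    (hγ : γ ∈ TT B) : dot ⊤ β γ = -1 := by
  obtain ⟨l, hl, h1, rfl⟩ := mem_TT.1 hβ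
  obtain ⟨m, hm, h2, rfl⟩ := mem_TT.1 hγ
  rw [bt_dot_th hl h1 hm h2, dot_eq_zero_of_supp (A := conjSet A) (fun x hx => by
    by_cases h3 : x = 1
    · rw [h3, h.th_one hl]
    · exact th_of_nmem h3 hx) fun x _ hx => th_of_nmem hx.1 (nmem_of_coprime hx hc), zero_sub]

theorem apply_eq (hφ : H22.Inv ⊤ φ) {y : G} (hy : y ∈ A) : φ y =
    dot A φ (one (A : Set G)) * (if y = 1 then (Nat.card A : ℂ) else 0) -
      ∑ v ∈ Irr A, dot ⊤ φ (th A v) * v y := by
  rw [← Res_of_mem φ hy, CF.apply_eq_sum (Res_mem_CF (hφ.mono le_top)), ← sum_Irr_apply,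
    Finset.mul_sum, ← Finset.sum_sub_distrib]
  refine Finset.sum_congr rfl fun v hv => ?_
  rw [dot_th hφ hv, dot_Res_left, h.lin hv]; ring

theorem sum_erase {y : G} (hy : y ∈ A) : ∑ v ∈ (Irr A).erase (one (A : Set G)), v y =
    (if y = 1 then (Nat.card A : ℂ) else 0) - 1 := by
  rw [← sum_Irr_apply A, ← Finset.add_sum_erase _ _ (one_mem_Irr A), one_one, one_of_mem hy,
    Finset.sum_congr rfl (g := fun v => v 1 * v y) fun v hv => by
      rw [h.lin (Finset.mem_of_mem_erase hv), one_mul]]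
  ring

theorem val (hφ : φ ∈ VC ⊤) (h0 : dot ⊤ φ 1 = 0) (c : ℤ) (h2 : ∀ β ∈ TT A, dot ⊤ φ β = c) :
    (∃ M : ℤ, φ 1 = (c + M * Nat.card A : ℤ)) ∧ ∀ y ∈ conjSet A, φ y = c := by
  have h3 : ∀ y ∈ A, φ y = (dot A φ (one (A : Set G)) - c) * (if y = 1 then (Nat.card A : ℂ) else 0)
      + c := fun y hy => by
    rw [h.apply_eq (VC.inv hφ) hy, ← Finset.add_sum_erase _ _ (one_mem_Irr A), H4.th_one,
      dot_zero_right, Finset.sum_congr (s₁ := (Irr A).erase (one (A : Set G))) rfl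
        (f := fun v => dot ⊤ φ (th A v) * v y) (g := fun v => c * v y) fun v hv => by
        have := h2 _ (mem_TT.2 ⟨v, Finset.mem_of_mem_erase hv, Finset.ne_of_mem_erase hv, rfl⟩)
        rw [bt, dot_sub_right, h0, sub_zero] at this
        rw [this], ← Finset.mul_sum, h.sum_erase hy]
    ring
  obtain ⟨d, hd⟩ := VC.dot_int_le hφ le_top (one_mem_VC A)
  refine ⟨⟨d - c, by rw [h3 1 (one_mem A), hd, if_pos rfl]; push_cast; ring⟩, fun y ⟨h1, g, hg⟩ => ?_⟩
  rw [← VC.inv hφ g trivial y, h3 _ hg, if_neg (conj_ne_one h1)]; simp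

theorem TT_cI (ho : Odd (Nat.card A)) {u : G} (hu : orderOf u = 2)
    (hN : u ∈ normalizer (A : Set G)) (hβ : β ∈ TT A) :
    dot ⊤ β (cI G) = Nat.card A - dot ⊤ 1 (cI G) := by
  obtain ⟨l, hl, h1, rfl⟩ := mem_TT.1 hβ
  rw [bt, dot_sub_left, th, dot_Ind_left le_top _ cI_inv, dot_congr_supp (A := {1}ᶜ)
    (ψ' := (Nat.card A : ℂ) • one (A : Set G)) (fun x hx => by
      rw [Set.notMem_compl_iff.1 hx]; simp [h.lin hl]) fun x hx h2 => by
      rw [cI, h.invPairs_eq ho hu hN (mem_conjSet_of_mem h2 hx), Pi.smul_apply, one_of_mem hx,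
        smul_eq_mul, mul_one],
    dot_smul_right, dot_sub_left, dot_one_one, Irr.dot_ne hl (one_mem_Irr A) h1]
  simp

end SS

end Cfsg.Agent.SSC
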