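/-
Lattice lemmas for virtual characters.
-/
import Cfsg.Agent.SSC.B

set_option autoImplicit false
set_option linter.unusedSectionVars false
set_option linter.style.haveILetI false

namespace Cfsg.Agent.SSC

open Cfsg.Agent.H4 Subgroup Cfsg.Agent.H11 Cfsg.Agent.H15 Cfsg.Agent.H22 Classical
open scoped ComplexConjugate

variable {G : Type*} [Group G] [Fintype G] {φ ψ a b c : G → ℂ}

/-- the real part of the inner product -/
noncomputable def rd (φ ψ : G → ℂ) : ℝ := (dot ⊤ φ ψ).re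

theorem rd_lin : (∀ a b c : G → ℂ, rd (a + b) c = rd a c + rd b c) ∧
    (∀ a b c : G → ℂ, rd a (b + c) = rd a b + rd a c) ∧
    (∀ a b c : G → ℂ, rd (a - b) c = rd a c - rd b c) ∧
    (∀ a b c : G → ℂ, rd a (b - c) = rd a b - rd a c) ∧
    (∀ a b : G → ℂ, rd (-a) b = -rd a b) ∧ (∀ a b : G → ℂ, rd a (-b) = -rd a b) := by
  simp [rd, dot_add_left, dot_add_right, dot_sub_left, dot_sub_right, dot_neg_left, dot_neg_right]

theorem rd_comm (a b : G → ℂ) : rd a b = rd b a := by rw [rd, rd, ← dot_conj, Complex.conj_re]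

theorem rd_self (a : G → ℂ) : rd a a = nrm ⊤ a := (nrm_eq_re _ _).symm

theorem rd_nonneg (a : G → ℂ) : 0 ≤ rd a a := rd_self a ▸ nrm_nonneg _ _

theorem eq_zero_of_rd (h : rd a a = 0) : a = 0 := eq_zero_of_nrm (supp_top a) (rd_self a ▸ h)

theorem dot_rd (h : φ ∈ VC ⊤) (h' : ψ ∈ VC ⊤) : dot ⊤ φ ψ = rd φ ψ := by
  obtain ⟨n, h1, h2, -⟩ := VC.dot_re_int h h'
  rw [rd, h2, h1]; simp

theorem rd_of_dot {r : ℝ} (h : dot ⊤ φ ψ = r) : rd φ ψ = r := by rw [rd, h, Complex.ofReal_re]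

theorem rd_int (h : φ ∈ VC ⊤) (h' : ψ ∈ VC ⊤) : ∃ n : ℤ, rd φ ψ = n := by
  obtain ⟨n, -, h2, -⟩ := VC.dot_re_int h h'
  exact ⟨n, h2⟩

theorem rd_D (ha : a ∈ Dirr ⊤) : rd a a = 1 := by rw [rd_self, Dirr.nrm ha]

theorem D_of_rd (h : φ ∈ VC ⊤) (h1 : rd φ φ = 1) : φ ∈ Dirr ⊤ := VC.Dirr_of_nrm h (rd_self φ ▸ h1)

theorem rd_cases (ha : a ∈ Dirr ⊤) (hb : b ∈ Dirr ⊤) : a = b ∨ a = -b ∨ rd a b = 0 := by
  rcases Dirr.dot_cases ha hb with e | e | e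
  exacts [Or.inl e.1, Or.inr (Or.inl e.1), Or.inr (Or.inr (by rw [rd, e]; simp))]

theorem perp_of (ha : a ∈ Dirr ⊤) (hb : b ∈ Dirr ⊤) (φ : G → ℂ) (h1 : rd a φ = 0)
    (h2 : rd b φ ≠ 0) : rd a b = 0 := by
  rcases rd_cases ha hb with rfl | rfl | e
  · exact (h2 h1).elim
  · simp only [rd_lin, neg_eq_zero] at h1; exact (h2 h1).elim
  · exact e

theorem eq_of_rd_one (ha : a ∈ Dirr ⊤) (hb : b ∈ Dirr ⊤) (h : rd a b = 1) : a = b :=
  Dirr.eq_of_dot_pos ha hb (by change 0 < rd a b; rw [h]; norm_num)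

theorem sq_le_rd (ha : a ∈ Dirr ⊤) (hφ : φ ∈ VC ⊤) : rd a φ ^ 2 ≤ rd φ φ := by
  have := Dirr.sq_dot_le ha φ
  rwa [dot_rd hφ (Dirr.VC ha), Complex.norm_real, Real.norm_eq_abs, sq_abs, rd_comm, ← rd_self] at this

theorem coef_lt (ha : a ∈ Dirr ⊤) (hφ : φ ∈ VC ⊤) (h4 : rd φ φ < 4) :
    rd a φ = -1 ∨ rd a φ = 0 ∨ rd a φ = 1 := by
  obtain ⟨n, hn⟩ := rd_int (Dirr.VC ha) hφ
  have h1 := (sq_le_rd ha hφ).trans_lt h4
  rw [hn] at h1 ⊢
  norm_cast at h1 ⊢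
  have h2 : n < 2 := by nlinarith
  have h3 : -2 < n := by nlinarith
  rw [Int.negSucc_eq]; omega

theorem coef_four (ha : a ∈ Dirr ⊤) (hφ : φ ∈ VC ⊤) (h4 : rd φ φ = 4) (h1 : φ 1 = -1) :
    rd a φ = -1 ∨ rd a φ = 0 ∨ rd a φ = 1 := by
  obtain ⟨n, hn⟩ := rd_int (Dirr.VC ha) hφ
  obtain ⟨d, hd⟩ := VC.one_int (Dirr.VC ha)
  have h2 := (sq_le_rd ha hφ).trans_eq h4
  have h5 := rd_D ha
  have h6 := rd_comm a φ
  have h3 : rd a φ ≠ 2 := fun e => by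
    have := congrFun (eq_zero_of_rd (a := φ - a - a) (by simp only [rd_lin]; linarith)) 1
    simp only [Pi.sub_apply, h1, hd, Pi.zero_apply] at this
    norm_cast at this
    rw [Int.negSucc_eq] at this; omega
  have h7 : rd a φ ≠ -2 := fun e => by
    have := congrFun (eq_zero_of_rd (a := φ + a + a) (by simp only [rd_lin]; linarith)) 1
    simp only [Pi.add_apply, h1, hd, Pi.zero_apply] at this
    norm_cast at this
    rw [Int.negSucc_eq] at this; omega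
  rw [hn] at h2 h3 h7 ⊢
  norm_cast at h2 h3 h7 ⊢
  have h8 : n < 3 := by nlinarith
  have h9 : -3 < n := by nlinarith
  simp only [Int.negSucc_eq] at h7 ⊢; omega

/-- a family of virtual characters of degree `-1` with Gram matrix `w - 1 + δ` -/
structure Fam (w : ℝ) (T : Finset (G → ℂ)) : Prop where
  vc : ∀ β ∈ T, β ∈ VC ⊤
  self : ∀ β ∈ T, rd β β = w
  ne : ∀ β ∈ T, ∀ γ ∈ T, β ≠ γ → rd β γ = w - 1

theorem exists_a {T : Finset (G → ℂ)} (h : Fam 2 T) (h1 : ∀ β ∈ T, β 1 = -1) (h2 : 2 ≤ T.card) :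
    ∃ a ∈ Dirr ⊤, ∀ β ∈ T, rd a β = 1 := by
  obtain ⟨β, hβ, γ, hγ, hne⟩ := Finset.one_lt_card.1 h2
  have h3 : ∀ a ∈ Dirr ⊤, ∀ δ ∈ T, rd a δ = -1 ∨ rd a δ = 0 ∨ rd a δ = 1 := fun a ha δ hδ =>
    coef_lt ha (h.vc δ hδ) (by rw [h.self δ hδ]; norm_num)
  obtain ⟨p, hp, q, hq, hpq, e, h4, h5⟩ : ∃ p ∈ Dirr ⊤, ∃ q ∈ Dirr ⊤, rd p q = 0 ∧ β = p + q ∧
      rd p γ = 1 ∧ rd q γ = 0 := by
    obtain ⟨p, hp, q, hq, hpq, e⟩ := VC.nrm_two (h.vc β hβ) (rd_self β ▸ h.self β hβ)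
    have h4 := h.ne β hβ γ hγ hne
    replace hpq : rd p q = 0 := rd_of_dot (by simpa using hpq)
    rw [e] at h4
    simp only [rd_lin] at h4
    rcases h3 p hp γ hγ with h5 | h5 | h5 <;> rcases h3 q hq γ hγ with h6 | h6 | h6 <;>
      try (exfalso; linarith)
    · exact ⟨q, hq, p, hp, rd_comm p q ▸ hpq, e.trans (add_comm _ _), h6, h5⟩
    · exact ⟨p, hp, q, hq, hpq, e, h5, h6⟩
  have hpp := rd_D hp
  have hqq := rd_D hq
  refine ⟨p, hp, fun δ hδ => by_contra fun h6 => ?_⟩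
  have h7 : β ≠ δ := fun e' => h6 (by rw [← e', e]; simp only [rd_lin]; linarith)
  have h8 : γ ≠ δ := fun e' => h6 (e' ▸ h4)
  have h9 := h.ne β hβ δ hδ h7
  have h10 := h.ne γ hγ δ hδ h8
  have h11 := h.self γ hγ
  have h12 := h.self δ hδ
  rw [e] at h9
  simp only [rd_lin] at h9
  have h13 : rd p δ = 0 ∧ rd q δ = 1 := by
    rcases h3 p hp δ hδ with h5 | h5 | h5 <;> rcases h3 q hq δ hδ with h6 | h6 | h6 <;>
      first | exact ⟨h5, h6⟩ | (exfalso; first | linarith | contradiction)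
  have h14 := congrFun (eq_zero_of_rd (a := δ - q - γ + p) (by
    simp only [rd_lin]
    linarith [h13.1, h13.2, rd_comm p q, rd_comm p γ, rd_comm q γ, rd_comm p δ, rd_comm q δ,
      rd_comm γ δ])) 1
  have h15 := h1 β hβ
  obtain ⟨d, hd⟩ := VC.one_int (Dirr.VC hp)
  rw [e] at h15
  simp only [Pi.sub_apply, Pi.add_apply, h1 γ hγ, h1 δ hδ, Pi.zero_apply, hd] at h14 h15
  have h16 : (2 * d : ℂ) = -1 := by linear_combination h14 + h15
  norm_cast at h16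
  rw [Int.negSucc_eq] at h16; omega

section
variable {T U V : Finset (G → ℂ)} (hT : Fam 2 T) (ha : a ∈ Dirr ⊤) (h1 : ∀ τ ∈ T, rd a τ = 1)
include hT ha h1

theorem b_D {τ : G → ℂ} (hτ : τ ∈ T) : τ - a ∈ Dirr ⊤ :=
  D_of_rd (sub_mem (hT.vc τ hτ) (Dirr.VC ha)) (by
    simp only [rd_lin]; linarith [hT.self τ hτ, h1 τ hτ, rd_comm a τ, rd_D ha])

theorem type_cases (h2 : 2 ≤ T.card) (hU : Fam 4 U) (hU1 : ∀ β ∈ U, β 1 = -1)
    (hx : ∀ τ ∈ T, ∀ β ∈ U, rd τ β = -1) : (∀ β ∈ U, rd a β = -1) ∨ ∀ β ∈ U, rd a β = 0 := by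
  obtain ⟨σ, hσ, τ, hτ, hne⟩ := Finset.one_lt_card.1 h2
  have h3 : ∀ β ∈ U, rd a β = -1 ∨ rd a β = 0 := fun β hβ => by
    have h3 := coef_four (b_D hT ha h1 hτ) (hU.vc β hβ) (hU.self β hβ) (hU1 β hβ)
    have h4 := hx τ hτ β hβ
    simp only [rd_lin] at h3
    rcases h3 with h3 | h3 | h3
    · exact Or.inr (by linarith)
    · exact Or.inl (by linarith)
    · rcases coef_four ha (hU.vc β hβ) (hU.self β hβ) (hU1 β hβ) with h5 | h5 | h5 <;>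
        exfalso <;> linarith
  by_contra h4
  push Not at h4
  obtain ⟨⟨β, hβ, h4⟩, γ, hγ, h5⟩ := h4
  replace h4 := (h3 β hβ).resolve_left h4
  replace h5 := (h3 γ hγ).resolve_right h5
  have h6 := rd_nonneg (β - γ - a + (σ - a) + (τ - a))
  simp only [rd_lin] at h6
  linarith [hU.self β hβ, hU.self γ hγ, hU.ne β hβ γ hγ (fun e => by rw [e] at h4; linarith),
    rd_comm β γ, rd_comm a β, rd_comm a γ, hx σ hσ β hβ, hx σ hσ γ hγ, hx τ hτ β hβ, hx τ hτ γ hγ,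
    rd_comm σ β, rd_comm σ γ, rd_comm τ β, rd_comm τ γ, rd_D ha, h1 σ hσ, h1 τ hτ, rd_comm a σ,
    rd_comm a τ, hT.self σ hσ, hT.self τ hτ, hT.ne σ hσ τ hτ hne, rd_comm σ τ]

theorem not_both (h2 : 2 ≤ T.card) {β γ : G → ℂ} (hβ : rd β β = 4) (hγ : rd γ γ = 4)
    (hβγ : rd β γ = -1) (hx : ∀ τ ∈ T, rd τ β = -1) (hy : ∀ τ ∈ T, rd τ γ = -1)
    (h3 : rd a β = 0) (h4 : rd a γ = 0) : False := by
  obtain ⟨σ, hσ, τ, hτ, hne⟩ := Finset.one_lt_card.1 h2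
  have h6 := rd_nonneg (β + γ + (σ - a) + (τ - a) + (σ - a) + (τ - a))
  simp only [rd_lin] at h6
  linarith [rd_comm β γ, rd_comm a β, rd_comm a γ, hx σ hσ, hy σ hσ, hx τ hτ, hy τ hτ,
    rd_comm σ β, rd_comm σ γ, rd_comm τ β, rd_comm τ γ, rd_D ha, h1 σ hσ, h1 τ hτ, rd_comm a σ,
    rd_comm a τ, hT.self σ hσ, hT.self τ hτ, hT.ne σ hσ τ hτ hne, rd_comm σ τ]

theorem card_le_three (hU : Fam 4 U) (h2 : 2 ≤ U.card) (hx : ∀ τ ∈ T, ∀ β ∈ U, rd τ β = -1)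
    (h3 : ∀ β ∈ U, rd a β = 0) : T.card ≤ 3 := by
  obtain ⟨β, hβ, γ, hγ, hne⟩ := Finset.one_lt_card.1 h2
  have h4 : Orthon ⊤ T (· - a) := orthon_of (fun τ hτ => Dirr.dot_self (b_D hT ha h1 hτ))
    fun σ hσ τ hτ e => by
      rw [dot_rd (Dirr.VC (b_D hT ha h1 hσ)) (Dirr.VC (b_D hT ha h1 hτ)), Complex.ofReal_eq_zero]
      simp only [rd_lin]
      linarith [hT.ne σ hσ τ hτ e, h1 σ hσ, h1 τ hτ, rd_comm a σ, rd_D ha]
  have h5 := h4.bessel (β + γ)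
  rw [Finset.sum_congr rfl (g := fun _ => 4) fun τ hτ => by
    rw [dot_rd (add_mem (hU.vc β hβ) (hU.vc γ hγ)) (Dirr.VC (b_D hT ha h1 hτ)),
      show rd (β + γ) (τ - a) = -2 by
        simp only [rd_lin]
        linarith [hx τ hτ β hβ, hx τ hτ γ hγ, h3 β hβ, h3 γ hγ, rd_comm a β, rd_comm a γ,
          rd_comm τ β, rd_comm τ γ]]
    norm_num, ← rd_self] at h5
  simp only [rd_lin, Finset.sum_const, nsmul_eq_mul] at h5
  have h6 : (T.card : ℝ) < 4 := by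
    linarith [hU.self β hβ, hU.self γ hγ, hU.ne β hβ γ hγ hne, rd_comm β γ]
  have : T.card < 4 := by exact_mod_cast h6
  omega

end

theorem exists_pair {U : Finset (G → ℂ)} (h : Fam 3 U) (h5 : 5 ≤ U.card) :
    ∃ p ∈ Dirr ⊤, ∃ q ∈ Dirr ⊤, rd p q = 0 ∧ ∀ u ∈ U, rd p u = 1 ∧ rd q u = 1 := by
  obtain ⟨β, hβ, γ, hγ, hne⟩ := Finset.one_lt_card.1 (show 1 < U.card by omega)
  have h3 : ∀ a ∈ Dirr ⊤, ∀ δ ∈ U, rd a δ = -1 ∨ rd a δ = 0 ∨ rd a δ = 1 := fun a ha δ hδ =>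
    coef_lt ha (h.vc δ hδ) (by rw [h.self δ hδ]; norm_num)
  obtain ⟨p, hp, q, hq, r, hr, hpq, hpr, hqr, e, h4, h6, h7⟩ : ∃ p ∈ Dirr ⊤, ∃ q ∈ Dirr ⊤,
      ∃ r ∈ Dirr ⊤, rd p q = 0 ∧ rd p r = 0 ∧ rd q r = 0 ∧ β = p + q + r ∧
      rd p γ = 1 ∧ rd q γ = 1 ∧ rd r γ = 0 := by
    obtain ⟨e, h4⟩ := VC.small (h.vc β hβ) (by rw [← rd_self, h.self β hβ]; norm_num)
    rw [← rd_self, h.self β hβ] at h4
    obtain ⟨p, q, r, hpq, hpr, hqr, h6⟩ := Finset.card_eq_three.1 (by exact_mod_cast h4.symm)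
    have h7 := cons_orthon ⊤ β
    have h8 := cons_subset (H := ⊤) (φ := β)
    rw [h6] at e h7 h8
    have hp := h8 (x := p) (by simp)
    have hq := h8 (x := q) (by simp)
    have hr := h8 (x := r) (by simp)
    rw [Finset.sum_insert (by simp [hpq, hpr]), Finset.sum_pair hqr] at e
    replace hpq : rd p q = 0 := rd_of_dot (by simpa using h7.ne (by simp) (by simp) hpq)
    replace hpr : rd p r = 0 := rd_of_dot (by simpa using h7.ne (by simp) (by simp) hpr)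
    replace hqr : rd q r = 0 := rd_of_dot (by simpa using h7.ne (by simp) (by simp) hqr)
    have h9 := h.ne β hβ γ hγ hne
    rw [e] at h9
    simp only [rd_lin] at h9
    rcases h3 p hp γ hγ with a1 | a1 | a1 <;> rcases h3 q hq γ hγ with a2 | a2 | a2 <;>
      rcases h3 r hr γ hγ with a3 | a3 | a3 <;> try (exfalso; linarith)
    · exact ⟨q, hq, r, hr, p, hp, hqr, rd_comm p q ▸ hpq, rd_comm p r ▸ hpr, e.trans (by abel),
        a2, a3, a1⟩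
    · exact ⟨p, hp, r, hr, q, hq, hpr, hpq, rd_comm q r ▸ hqr, e.trans (by abel), a1, a3, a2⟩
    · exact ⟨p, hp, q, hq, r, hr, hpq, hpr, hqr, e.trans (by abel), a1, a2, a3⟩
  have hpp := rd_D hp
  have hqq := rd_D hq
  have hrr := rd_D hr
  have hγγ := h.self γ hγ
  have c1 := rd_comm p q
  have c2 := rd_comm p r
  have c3 := rd_comm q r
  have c4 := rd_comm p γ
  have c5 := rd_comm q γ
  have c6 := rd_comm r γ
  refine ⟨p, hp, q, hq, hpq, ?_⟩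
  have h8 : ∀ u ∈ U, u ≠ β → u ≠ γ → (rd p u = 1 ∧ rd q u = 1 ∧ rd r u = 0) ∨
      (u = γ + r - p ∧ rd p u = 0 ∧ rd q u = 1) ∨ (u = γ + r - q ∧ rd p u = 1 ∧ rd q u = 0) :=
    fun u hu e1 e2 => by
    have a0 := h.ne β hβ u hu e1.symm
    have a4 := h.ne γ hγ u hu e2.symm
    have a5 := h.self u hu
    rw [e] at a0
    simp only [rd_lin] at a0
    rcases h3 p hp u hu with a1 | a1 | a1 <;> rcases h3 q hq u hu with a2 | a2 | a2 <;>
      rcases h3 r hr u hu with a3 | a3 | a3 <;> try (exfalso; linarith)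
    · refine Or.inr (Or.inl ⟨sub_eq_zero.1 (eq_zero_of_rd ?_), a1, a2⟩)
      simp only [rd_lin]
      linarith [rd_comm p u, rd_comm r u, rd_comm γ u]
    · refine Or.inr (Or.inr ⟨sub_eq_zero.1 (eq_zero_of_rd ?_), a1, a2⟩)
      simp only [rd_lin]
      linarith [rd_comm q u, rd_comm r u, rd_comm γ u]
    · exact Or.inl ⟨a1, a2, a3⟩
  by_contra h9
  push Not at h9
  obtain ⟨v, hv, h9⟩ := h9
  have h10 : v ≠ β := fun e' => h9 (by rw [e', e]; simp only [rd_lin]; linarith)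
    (by rw [e', e]; simp only [rd_lin]; linarith)
  have h11 : v ≠ γ := fun e' => h9 (e' ▸ h4) (e' ▸ h6)
  have h12 : U ⊆ {β, γ, γ + r - p, γ + r - q} := fun u hu => by
    simp only [Finset.mem_insert, Finset.mem_singleton]
    by_contra h12
    push Not at h12
    obtain ⟨a1, a2, a3⟩ := ((h8 u hu h12.1 h12.2.1).resolve_right fun e =>
      e.elim (fun e => h12.2.2.1 e.1) fun e => h12.2.2.2 e.1)
    have a4 := h.ne γ hγ u hu h12.2.1.symm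
    have a5 := h.ne v hv u hu fun e => h9 (e ▸ a1) (e ▸ a2)
    rcases h8 v hv h10 h11 with e | ⟨e, -⟩ | ⟨e, -⟩
    · exact h9 e.1 e.2.1
    all_goals
      rw [e] at a5
      simp only [rd_lin] at a5
      linarith
  have := (Finset.card_le_card h12).trans Finset.card_le_four
  omega

end Cfsg.Agent.SSC
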