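/-
Arithmetic for self-centralization systems.
-/
import Mathlib

set_option autoImplicit false

namespace Cfsg.Agent.SSC

theorem arII {s r2 r3 α T c J m l u v : ℤ} (hs : s = 2 ∨ s = 3) (h2 : 2 ≤ r2) (h3 : 2 ≤ r3)
    (h5 : 5 ≤ r2 + r3) (hJ : 0 < J) (hc0 : 0 < c) (hα : 0 < α * (α + 1)) (hc : c ^ 2 = J * (α - T) ^ 2)
    (hg : (2 * s + 1) * (4 * r2 + 1) * (4 * r3 + 1) * m = (2 * s + 1) * (α * (α + 1)) * J)
    (hcnt : c ^ 2 * (s + r2 + r3) ≤ (2 * s + 1) * (α * (α + 1)) * J)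
    (b2 : (4 * r2 + 1) * T * α ≤ α ^ 2) (b3 : (4 * r3 + 1) * (1 + T) * (1 + α) ≤ (1 + α) ^ 2)
    (hm : m ≤ 3 * ((2 * s + 1) * (4 * r2 + 1) * (4 * r3 + 1)))
    (hco : IsCoprime m ((4 * r2 + 1) * (4 * r3 + 1))) (hcm : c ∣ m)
    (e1 : α = 1 + l * (2 * s + 1)) (e2 : α = u * (4 * r2 + 1)) (e3 : α = -1 + v * (4 * r3 + 1)) :
    False := by
  have a1 : (α - T) ^ 2 * (s + r2 + r3) ≤ (2 * s + 1) * (α * (α + 1)) := by
    rw [hc] at hcnt
    exact le_of_mul_le_mul_left (a := J) (by linarith) hJ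
  have a2 : 4 * r2 * α ^ 2 ≤ (4 * r2 + 1) * ((α - T) * α) := by linarith
  have a3 : 4 * r3 * (α + 1) ^ 2 ≤ (4 * r3 + 1) * ((α - T) * (α + 1)) := by linarith
  have a4 := mul_le_mul a2 a3 (by positivity) ((by positivity : 0 ≤ 4 * r2 * α ^ 2).trans a2)
  have a5 : 16 * (r2 * r3) * (α * (α + 1)) ≤ (4 * r2 + 1) * (4 * r3 + 1) * (α - T) ^ 2 :=
    le_of_mul_le_mul_left (a := α * (α + 1)) (by linarith) hα
  have a6 : 16 * (r2 * r3) * (s + r2 + r3) ≤ (2 * s + 1) * ((4 * r2 + 1) * (4 * r3 + 1)) := by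
    refine le_of_mul_le_mul_left (a := α * (α + 1)) ?_ hα
    have b1 := mul_le_mul_of_nonneg_left a1 (by positivity : 0 ≤ (4 * r2 + 1) * (4 * r3 + 1))
    have b2 := mul_le_mul_of_nonneg_left a5 (by omega : 0 ≤ s + r2 + r3)
    linarith
  have a7 : 2 * (r2 + r3) - 4 ≤ r2 * r3 := by nlinarith
  rcases hs with rfl | rfl
  · nlinarith
  have a8 : r2 + r3 = 5 := by
    by_contra a8
    have : 6 ≤ r2 + r3 := by omega
    nlinarith
  have a9 : α * (α + 1) ≤ 287469 := by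
    have : (4 * r2 + 1) * (4 * r3 + 1) = 117 := by
      obtain rfl | rfl : r2 = 2 ∨ r2 = 3 := by omega
      all_goals obtain rfl : r3 = _ := eq_sub_of_add_eq' a8; norm_num
    rw [mul_assoc (2 * 3 + 1), this] at hg hm
    nlinarith
  have a10 : α < 537 := by nlinarith
  have a11 : -537 < α := by nlinarith
  obtain rfl | rfl : r2 = 2 ∨ r2 = 3 := by omega
  · obtain rfl : r3 = 3 := by omega
    obtain rfl : α = -27 := by omega
    obtain rfl : m = 6 * J := by omega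
    have := hco.isUnit_of_dvd' (Dvd.intro (2 * J) (by ring) : (3 : ℤ) ∣ _) (by norm_num)
    rw [Int.isUnit_iff] at this; omega
  · obtain rfl : r3 = 2 := by omega
    obtain rfl : α = 260 := by omega
    obtain rfl : m = 580 * J := by omega
    have b1 : T ≤ 20 := by omega
    have b2 : 16 < T := by nlinarith
    have b3 : J ≤ 4 := by omega
    have b4 := pow_dvd_pow_of_dvd hcm 2
    rw [hc] at b4
    interval_cases T <;> interval_cases J <;> norm_num at b4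

theorem tt_pos {T : ℤ} (h0 : T ≠ 0) (h1 : T ≠ -1) : 0 < T * (T + 1) := by
  rcases (show T < -1 ∨ 0 < T by omega) with h | h <;> nlinarith

theorem j1 {P κ : ℤ} (hP : 117 ≤ P) (h : 2 ≤ κ ∨ κ ≤ -2) : 3 * P + 1 ≤ κ ^ 2 * P - κ := by
  have h1 : 0 ≤ (κ ^ 2 - 4) * (P - 1) := mul_nonneg (by rcases h with h | h <;> nlinarith) (by omega)
  rcases h with h | h <;> nlinarith

theorem j2 {α s l : ℤ} (hs : 2 ≤ s) (l0 : l ≠ 0) (e : α = 1 + l * (2 * s + 1)) :
    2 * s + 1 ≤ |α| + 1 := by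
  rcases lt_or_gt_of_ne l0 with h | h
  · have := neg_le_abs α; nlinarith
  · have := le_abs_self α; nlinarith

theorem j3 {T : ℤ} (h : T * (T + 1) ≤ 3 * |T|) : |T| ≤ 4 := by
  rcases abs_cases T with h | h <;> nlinarith

theorem j4 {x j : ℤ} (h1 : 116 ≤ x) (h2 : x - 4 ≤ 4 * j) (h3 : j ^ 2 ≤ 3 * x + 4) : False := by
  nlinarith

theorem j5 {P a n1 J : ℤ} (hP : 117 ≤ P) (h0 : 0 < n1) (h1 : P - 1 ≤ a) (h2 : 4 * n1 + 1 ≤ J)
    (h3 : a * J ≤ 3 * (n1 * P)) : False := by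
  have := mul_le_mul h1 h2 (by omega) (by omega)
  nlinarith

theorem j6 {P a n1 J : ℤ} (hP : 117 ≤ P) (h0 : 0 < n1) (h1 : 3 * P + 1 ≤ a) (h2 : n1 + 1 ≤ J)
    (h3 : a * J ≤ 3 * (n1 * P)) : False := by
  have := mul_le_mul h1 h2 (by omega) (by omega)
  nlinarith

theorem arJ {s P α κ l j W T c i : ℤ} (hs : 2 ≤ s) (hP : 117 ≤ P) (e1 : α + 1 = κ * P)
    (e2 : α = 1 + l * (2 * s + 1)) (hm : α * κ * j ^ 2 ≤ 3 * ((2 * s + 1) * P))
    (hq : 4 * (α * κ * j ^ 2) = 2 * κ ^ 2 * P + (2 * s + 1) * W) (hc : c = (α - T) * j)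
    (hc0 : 0 < c) (hcm : c ∣ α * κ * j ^ 2) (hco : IsCoprime c P) (hp : 2 ∣ α - T)
    (hi : c * i = (2 * s + 1) * P * (α * κ * j ^ 2)) (ho : Odd i) (hα : α ≠ -1)
    (hb : i * (T * (T + 1)) ≤ α * (α + 1) * (j ^ 2 - 1)) : j ^ 2 = 1 ∧ T = 0 := by
  have k0 : κ ≠ 0 := by rintro rfl; omega
  have j0 : j ≠ 0 := by rintro rfl; simp at hc; omega
  have hT : T ≠ -1 := by
    rintro rfl
    have := hco.isUnit_of_dvd' (Dvd.intro (κ * j) (by rw [hc]; linear_combination -j * e1)) dvd_rfl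
    rw [Int.isUnit_iff] at this; omega
  have a0 : 116 ≤ α ∧ 1 ≤ κ ∨ α ≤ -118 ∧ κ ≤ -1 := by
    rcases lt_or_gt_of_ne k0 with h | h
    · right; constructor <;> nlinarith
    · left; constructor <;> nlinarith
  have a1 : 0 < α * κ := by rcases a0 with h | h <;> nlinarith
  have i0 : 0 < i := by
    have : 0 < c * i := by rw [hi]; positivity
    exact (mul_pos_iff_of_pos_left hc0).1 this
  obtain ⟨n, hn⟩ : (2 * s + 1) ∣ j ^ 2 - 1 := by
    have h1 : IsCoprime (2 * s + 1) κ := ⟨1 + s * l, -s * P, by linear_combination s * e1 - s * e2⟩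
    have h2 : IsCoprime (2 * s + 1) 2 := ⟨1, -s, by ring⟩
    refine ((h2.mul_right h2).mul_right h1).dvd_of_dvd_mul_left ⟨W + 2 * κ * l - 4 * κ * l * j ^ 2, ?_⟩
    linear_combination hq - 2 * κ * e1 + (2 * κ - 4 * κ * j ^ 2) * e2
  have jj : 1 ≤ j ^ 2 := by have := sq_pos_of_ne_zero j0; omega
  have n0 : 0 ≤ n := by nlinarith
  by_cases h0 : n = 0
  · have h1 : j ^ 2 = 1 := by rw [h0] at hn; linarith
    refine ⟨h1, by_contra fun h2 => ?_⟩
    rw [h1] at hb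
    have := mul_pos i0 (tt_pos h2 hT)
    linarith
  exfalso
  have n1 : 1 ≤ n := by omega
  have a2 : α * κ = κ ^ 2 * P - κ := by linear_combination κ * e1
  have a3 : 2 * s + 2 ≤ j ^ 2 := by nlinarith
  have k1 : κ ^ 2 = 1 := by
    by_contra h
    have h1 : 2 ≤ κ ∨ κ ≤ -2 := by
      rcases a0 with h' | h'
      · left; by_contra h''; obtain rfl : κ = 1 := by omega
        exact h rfl
      · right; by_contra h''; obtain rfl : κ = -1 := by omega
        exact h rfl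
    exact j6 hP (by omega) (a2 ▸ j1 hP h1) (by omega) hm
  have a4 : P - 1 ≤ α * κ := by
    rw [a2, k1]; rcases sq_eq_one_iff.1 k1 with rfl | rfl <;> omega
  have n3 : n ≤ 3 := by
    by_contra h
    have := mul_le_mul_of_nonneg_left (show 4 ≤ n by omega) (show 0 ≤ 2 * s + 1 by omega)
    exact j5 hP (by omega) a4 (by omega) hm
  by_cases hT0 : T = 0
  · subst hT0
    have h1 : i = (2 * s + 1) * P * κ * j := by
      have h1 : α * j ≠ 0 := by rw [hc, sub_zero] at hc0; exact hc0.ne'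
      refine mul_left_cancel₀ h1 ?_
      rw [hc] at hi; linear_combination hi
    rw [h1] at ho
    obtain ⟨w, rfl⟩ := (Int.odd_mul.1 ho).2
    obtain ⟨z, hz⟩ := Int.even_mul_succ_self w
    have h2 : 8 * z = (2 * s + 1) * n := by linear_combination hn - 4 * hz
    interval_cases n <;> omega
  have t1 := tt_pos hT0 hT
  have d1 : (α - T) ∣ T * j := by
    rw [hc, sq, ← mul_assoc] at hcm
    have h1 := (mul_dvd_mul_iff_right j0).1 hcm
    have h2 : α - T ∣ α * j := by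
      have := h1.mul_right κ
      rwa [show α * κ * j * κ = α * j * κ ^ 2 by ring, k1, mul_one] at this
    have := h2.sub (dvd_mul_right (α - T) j)
    rwa [show α * j - (α - T) * j = T * j by ring] at this
  have d2 : |α - T| ≤ |T| * |j| := by
    rw [← abs_mul]
    exact Int.le_of_dvd (abs_pos.2 (mul_ne_zero hT0 j0)) ((abs_dvd_abs _ _).2 d1)
  have d3 : c = |α - T| * |j| := by rw [← abs_mul, ← hc, abs_of_pos hc0]
  have d4 : j ^ 2 * (T * (T + 1)) ≤ c * n := by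
    refine le_of_mul_le_mul_left (a := (2 * s + 1) * P * (α * κ)) ?_ (by positivity)
    have h1 := mul_le_mul_of_nonneg_left hb hc0.le
    rw [← mul_assoc, hi, hn, e1] at h1
    linarith
  have d5 : T * (T + 1) ≤ 3 * |T| := by
    refine le_of_mul_le_mul_left (a := j ^ 2) (d4.trans ?_) (by positivity)
    rw [d3, ← sq_abs j]
    calc _ ≤ |T| * |j| * |j| * 3 := by gcongr
      _ = _ := by ring
  have d6 := j3 d5
  have d7 : |α| - 4 ≤ 4 * |j| := by
    have := abs_sub_abs_le_abs_sub α T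
    have := mul_le_mul_of_nonneg_right d6 (abs_nonneg j)
    omega
  have d8 := j2 hs (by rintro rfl; omega) e2
  have d9 : 116 ≤ |α| := by rcases abs_cases α with h' | h' <;> omega
  have := mul_le_mul_of_nonneg_left n3 (show 0 ≤ 2 * s + 1 by omega)
  exact j4 d9 d7 (by rw [sq_abs]; omega)

theorem arK {n1 n2 n3 x k p q o E : ℤ} (h2 : 9 ≤ n2) (h3 : 9 ≤ n3) (h5 : 22 ≤ n2 + n3) (hn : 0 < n1)
    (hk : Odd k) (hx : x ≤ k * (n2 * n3) + 1) (hx' : k * (n2 * n3) - 1 ≤ x) (k0 : 0 < k)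
    (hm : x * k ≤ 3 * (n1 * (n2 * n3))) (hq : k * (p + q) = n2 * p ^ 2 + n3 * q ^ 2 + E)
    (hpq : p + q = 4 * o) (ho : 1 ≤ o) (hE : 0 ≤ E) (hE' : E < 12)
    (hi : 4 * (n1 * (n2 * n3)) * k ≤ (2 * (n2 + n3) + 9 * k) * x) :
    o ≤ 2 ∧ (k = 4 * o * n2 + 1 ∨ k = 4 * o * n3 + 1) := by
  have h6 : ∀ n : ℤ, k * (4 * o) = n * (4 * o) ^ 2 + E → o ≤ 2 ∧ k = 4 * o * n + 1 := fun n e => by
    obtain ⟨w, rfl⟩ := hk
    obtain ⟨d, hd⟩ : ∃ d, 2 * w + 1 = 4 * (o * n) + d := ⟨_, (add_sub_cancel _ _).symm⟩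
    have h1 : E = 4 * (o * d) := by linear_combination -e + 4 * o * hd
    have h2 : 0 ≤ d := by nlinarith
    have h3 : d ≤ 2 := by nlinarith
    obtain rfl : d = 1 := by omega
    exact ⟨by omega, by linarith⟩
  by_cases q0 : q = 0
  · subst q0
    rw [add_zero] at hpq; subst hpq
    exact (h6 n2 (by linarith)).imp_right Or.inl
  by_cases p0 : p = 0
  · subst p0
    rw [zero_add] at hpq; subst hpq
    exact (h6 n3 (by linarith)).imp_right Or.inr
  exfalso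
  have a0 : 5 * (n2 + n3) ≤ n2 * n3 := by nlinarith
  have a1 : 20 * o ≤ k := by
    have b1 : n2 * n3 * (4 * o) ^ 2 ≤ (n2 + n3) * (k * (4 * o)) := by
      rw [← hpq, hq]; nlinarith [sq_nonneg (n2 * p - n3 * q)]
    have b2 : n2 * n3 * (4 * o) ≤ (n2 + n3) * k :=
      le_of_mul_le_mul_left (a := 4 * o) (by linarith) (by omega)
    nlinarith
  have a2 : n2 + n3 ≤ k * (4 * o) := by
    have := sq_pos_of_ne_zero p0
    have := sq_pos_of_ne_zero q0
    rw [← hpq, hq]; nlinarith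
  generalize n2 + n3 = S at *
  generalize n2 * n3 = P at *
  have a3 : 110 ≤ P := by omega
  have a4 : k ^ 2 ≤ 4 * n1 := by
    refine le_of_mul_le_mul_left (a := 3 * P) ?_ (by omega)
    nlinarith
  have a5 : 39 * n1 ≤ 10 * (2 * S + 9 * k) := by
    refine le_of_mul_le_mul_left (a := 4 * (k * P)) ?_ (by positivity)
    have b1 : 39 * x ≤ 40 * (k * P) := by nlinarith
    have b2 : 0 ≤ 2 * S + 9 * k := by omega
    nlinarith
  nlinarith

theorem two_pow_le {a : ℕ} {M : ℤ} (hM : Odd M) (h1 : 1 < M) (h : 2 ^ a ∣ M ^ 2 - 1) :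
    2 ^ a ≤ 2 * (M + 1) := by
  obtain ⟨u, rfl⟩ := hM
  rcases Nat.lt_or_ge a 2 with h2 | h2
  · interval_cases a <;> omega
  obtain ⟨b, rfl⟩ := Nat.exists_eq_add_of_le h2
  rw [pow_add, show (2 * u + 1) ^ 2 - 1 = 2 ^ 2 * (u * (u + 1)) by ring,
    mul_dvd_mul_iff_left (by norm_num)] at h
  have h3 : (2 : ℤ) ^ b ≤ u + 1 := by
    rcases Int.even_or_odd u with h4 | h4
    · exact (Int.le_of_dvd (by omega) ((Int.isCoprime_two_left.2 h4.add_one).pow_left.dvd_of_dvd_mul_right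
        h)).trans (by omega)
    · exact Int.le_of_dvd (by omega) ((Int.isCoprime_two_left.2 h4).pow_left.dvd_of_dvd_mul_left h)
  rw [pow_add]; omega

theorem arF {n1 r2 r3 D : ℤ} {a : ℕ} (h1 : 5 ≤ n1) (h2 : 2 ≤ r2) (h3 : 2 ≤ r3)
    (hx : 2 ^ a + 1 = (4 * r2 + 1) * (4 * r3 + 1)) (hl : n1 * (2 * (r2 + r3) + 1) = 2 ^ a - 1)
    (hD : D = r2 - r3) (hd : D ∣ 2 ^ a) : ¬ 3 ∣ n1 * ((4 * r2 + 1) * (4 * r3 + 1)) * 2 ^ a := by
  obtain ⟨b, -, hb⟩ : ∃ b ≤ a, D.natAbs = 2 ^ b :=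
    (Nat.dvd_prime_pow Nat.prime_two).1 (by exact_mod_cast Int.natAbs_dvd_natAbs.2 hd)
  have h4 : D ^ 2 = 2 ^ (2 * b) := by
    rw [← Int.natAbs_sq, hb]; push_cast; ring
  set M := 2 * (r2 + r3) + 1 with hM
  have h5 : M ^ 2 - 1 = 2 ^ a + 2 ^ (2 * b + 2) := by
    rw [pow_add, ← h4, hD]; linear_combination -hx
  have h6 : Odd M := ⟨_, rfl⟩
  rcases le_total a (2 * b + 2) with h7 | h7
  · have := two_pow_le h6 (by omega) (h5 ▸ dvd_add dvd_rfl (pow_dvd_pow 2 h7))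
    nlinarith
  have h8 := two_pow_le h6 (by omega) (h5 ▸ dvd_add (pow_dvd_pow 2 h7) dvd_rfl)
  rw [pow_add, ← h4] at h5 h8
  obtain ⟨L, hL⟩ : ∃ L, M - n1 = 2 * L := by
    have : Odd n1 := by
      have h9 : Odd (n1 * M) := by
        rw [hl]; exact (Int.even_pow.2 ⟨even_two, by rintro rfl; nlinarith⟩).sub_odd odd_one
      exact (Int.odd_mul.1 h9).1
    obtain ⟨L, hL⟩ := h6.sub_odd this
    exact ⟨L, by omega⟩
  have h9 : M * L = 2 * D ^ 2 + 1 := by nlinarith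
  have h10 : L = 1 := by
    have b1 : 0 < L := by nlinarith [sq_nonneg D]
    by_contra b2
    have b3 : 2 ≤ L := by omega
    nlinarith
  subst h10
  have h11 : D ^ 2 % 3 = 1 := by
    rw [h4, pow_mul]
    have := (show (2 : ℤ) ^ 2 ≡ 1 [ZMOD 3] by decide).pow b
    rwa [one_pow] at this
  rw [← hx]
  intro h
  rcases Int.prime_three.dvd_or_dvd h with h | h
  · rcases Int.prime_three.dvd_or_dvd h with h | h
    · omega
    · have : (2 : ℤ) ^ a = 4 * (D ^ 2) ^ 2 := by nlinarith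
      rw [this] at h
      have h12 : (D ^ 2) ^ 2 % 3 = 1 := by rw [sq, Int.mul_emod, h11]; norm_num
      omega
  · have := Int.prime_three.dvd_of_dvd_pow h
    omega

end Cfsg.Agent.SSC
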