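/-
Signed irreducible characters: values and degrees.
-/
import Cfsg.Agent.SSC.C

set_option autoImplicit false
set_option linter.unusedSectionVars false
set_option linter.style.haveILetI false

namespace Cfsg.Agent.SSC

open Cfsg.Agent.H4 Subgroup Cfsg.Agent.H11 Cfsg.Agent.H15 Cfsg.Agent.H22 Classical
open scoped ComplexConjugate

variable {G : Type*} [Group G] [Fintype G] {φ ψ α a b : G → ℂ}

theorem D_deg (hα : α ∈ Dirr ⊤) {d : ℤ} (hd : α 1 = d) : d ∣ Nat.card G := by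
  obtain ⟨e, he, χ, hχ, rfl⟩ := Dirr.exists_sign hα
  have h1 : (deg χ : ℤ) ∣ Nat.card G := by exact_mod_cast card_top (G := G) ▸ Irr.deg_dvd_card hχ
  rw [Pi.smul_apply, ← Irr.deg_eq hχ] at hd
  rcases he with rfl | rfl
  · obtain rfl : d = deg χ := by exact_mod_cast (by simpa using hd.symm : (d : ℂ) = deg χ)
    exact h1
  · obtain rfl : d = -deg χ := by exact_mod_cast (by simpa using hd.symm : (d : ℂ) = -deg χ)
    exact h1.neg_left

theorem D_inv (hα : α ∈ Dirr ⊤) {d : ℤ} (hd : α 1 = d) {t : G} (ht : orderOf t = 2) :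
    ∃ T : ℤ, α t = T ∧ 2 ∣ d - T := by
  obtain ⟨e, he, χ, hχ, rfl⟩ := Dirr.exists_sign hα
  obtain ⟨k, -, hk⟩ := (isChar_top.1 (Irr.char hχ)).exists_int_of_sq_eq_one
    (g := t) (by rw [← ht, pow_orderOf_eq_one]) (Irr.deg_eq hχ).symm
  rw [Pi.smul_apply, ← Irr.deg_eq hχ] at hd
  rcases he with rfl | rfl
  · exact ⟨d - 2 * k, by simp [hk, ← hd], by simp⟩
  · exact ⟨d + 2 * k, by simp [hk, ← hd]; ring, by simp⟩

theorem D_central (hα : α ∈ Dirr ⊤) {d v : ℤ} (hd : α 1 = d) {g : G} (hv : α g = v) :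
    d ∣ (centralizer ({g} : Set G)).index * v := by
  have h0 := Dirr.one_ne hα
  obtain ⟨e, he, χ, hχ, rfl⟩ := Dirr.exists_sign hα
  have h1 := (mem_Irr_top.1 hχ).isIntegral_centralChar g
  refine int_dvd_of_isIntegral_div (fun e => h0 (by rw [hd, e]; simp)) ?_
  convert h1 using 1
  have := Irr.one_ne hχ
  rw [centralChar, ← hd]; push_cast; rw [← hv]
  rcases he with rfl | rfl <;> simp <;> field_simp

theorem D_class (hα : α ∈ Dirr ⊤) (s : G) :
    (∑ x ∈ Finset.univ.filter (IsConj s), ∑ y ∈ Finset.univ.filter (IsConj s), α (x * y)) * α 1 =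
      (centralizer ({s} : Set G)).index ^ 2 * α s ^ 2 := by
  obtain ⟨e, he, χ, hχ, rfl⟩ := Dirr.exists_sign hα
  have h2 := Irr.one_ne hχ
  simp only [Pi.smul_apply, smul_eq_mul, ← Finset.mul_sum]
  rw [Cfsg.IsIrrCharacter.sum_class_class (mem_Irr_top.1 hχ)]
  rcases he with rfl | rfl <;> field_simp

theorem D_faithful [IsSimpleGroup G] (hα : α ∈ Dirr ⊤) (h0 : dot ⊤ α 1 = 0) {s : G}
    (hs : α s = α 1) : s = 1 := by
  obtain ⟨e, he, χ, hχ, rfl⟩ := Dirr.exists_sign hα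
  have h1 : e ≠ 0 := by rcases he with rfl | rfl <;> simp
  have h2 : s ∈ ker χ := (Irr.mem_ker_iff hχ).2 (mul_left_cancel₀ h1 hs)
  have h3 : (ker χ).Normal := normalizer_eq_top_iff.1 (top_le_iff.1 (Irr.inv hχ).le_normalizer_ker)
  rcases h3.eq_bot_or_eq_top with h4 | h4
  · exact mem_bot.1 (h4 ▸ h2)
  · rw [(Irr.eq_one_iff hχ).2 h4.ge, one_top, dot_smul_left, Dirr.dot_self one_Dirr, mul_one] at h0
    exact (h1 h0).elim

theorem sum_dot (φ ψ : G → ℂ) : ∑ g, φ g * conj (ψ g) = Nat.card G * dot ⊤ φ ψ := by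
  rw [dot, fs_top, card_top, mul_inv_cancel_left₀ (Nat.cast_ne_zero.2 Nat.card_pos.ne')]

/-- the normalized indicator function of a class -/
noncomputable def ci (g : G) : G → ℂ :=
  fun x => if IsConj g x then Nat.card (centralizer ({g} : Set G)) else 0

theorem ci_CF (g : G) : ci g ∈ CF ⊤ := mem_CF.2 ⟨supp_top _, fun h _ x => by
  have : IsConj g (h * x * h⁻¹) ↔ IsConj g x :=
    ⟨fun e => e.trans (isConj_iff.2 ⟨h, rfl⟩).symm, fun e => e.trans (isConj_iff.2 ⟨h, rfl⟩)⟩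
  simp only [ci, this]⟩

theorem dot_ci (hφ : H22.Inv ⊤ φ) (g : G) : dot ⊤ φ (ci g) = φ g := by
  refine mul_left_cancel₀ (Nat.cast_ne_zero.2 (Nat.card_pos (α := G)).ne') ?_
  rw [← sum_dot, Finset.sum_congr rfl (g := fun x => if IsConj g x then
    φ g * Nat.card (centralizer ({g} : Set G)) else 0) fun x _ => by
      unfold ci
      split_ifs with h
      · obtain ⟨c, rfl⟩ := isConj_iff.1 h
        rw [hφ c trivial]; simp
      · simp, ← Finset.sum_filter, Finset.sum_const, card_cls,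
    ← card_mul_index (centralizer ({g} : Set G))]
  simp only [nsmul_eq_mul, Nat.cast_mul]; ring

theorem ci_dot (hφ : H22.Inv ⊤ φ) (g : G) : dot ⊤ (ci g) φ = conj (φ g) := by
  rw [← dot_conj, dot_ci hφ]

theorem nrm_ci (g : G) : nrm ⊤ (ci g) = Nat.card (centralizer ({g} : Set G)) := by
  rw [nrm_eq_re, dot_ci (CF.inv (ci_CF g)), ci, if_pos (IsConj.refl g), Complex.natCast_re]

theorem col_bessel {ι : Type*} {s : Finset ι} {f : ι → G → ℂ} (h : Orthon ⊤ s f)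
    (hf : ∀ i ∈ s, f i ∈ Dirr ⊤) (g : G) :
    ∑ i ∈ s, ‖f i g‖ ^ 2 ≤ Nat.card (centralizer ({g} : Set G)) := by
  have := h.bessel (ci g)
  rwa [nrm_ci, Finset.sum_congr rfl fun i hi => by
    rw [ci_dot (Dirr.inv (hf i hi)), Complex.norm_conj]] at this

theorem sum_sq {ι : Type*} {s : Finset ι} {f : ι → G → ℂ} (h : Orthon ⊤ s f)
    (hf : ∀ i ∈ s, f i ∈ Dirr ⊤) {N : ℤ} (hN : N ≠ 0)
    (hd : ∀ χ ∈ Irr ⊤, (∀ i ∈ s, dot ⊤ χ (f i) = 0) → ∃ d : ℤ, χ 1 = (N * d : ℤ)) :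
    ∃ ω : ℕ, (Nat.card G : ℝ) = ∑ i ∈ s, ‖f i 1‖ ^ 2 + N ^ 2 * ω ∧
      (ω = 0 → ∀ χ ∈ Irr ⊤, ∃ i ∈ s, χ = f i ∨ χ = -f i) := by
  have h1 := h.nrm_eq_add (ci 1)
  have hR : ci 1 - proj ⊤ s f (ci 1) ∈ CF (⊤ : Subgroup G) := sub_mem (ci_CF 1)
    (Submodule.sum_mem _ fun i hi => Submodule.smul_mem _ _ (Dirr.CF (hf i hi)))
  have h0 : ∀ χ ∈ Irr ⊤, (∀ i ∈ s, dot ⊤ χ (f i) = 0) →
      dot ⊤ (ci 1 - proj ⊤ s f (ci 1)) χ = conj (χ 1) := fun χ hχ e => by
    rw [dot_sub_left, ci_dot (Irr.inv hχ), proj, dot_zero_symm (dot_sum_smul_eq_zero e _), sub_zero]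
  have h2 : ∀ χ ∈ Irr (⊤ : Subgroup G), ∃ d : ℕ,
      ‖dot ⊤ (ci 1 - proj ⊤ s f (ci 1)) χ‖ ^ 2 = N ^ 2 * d := fun χ hχ => by
    by_cases e : ∀ i ∈ s, dot ⊤ χ (f i) = 0
    · obtain ⟨d, hd⟩ := hd χ hχ e
      refine ⟨d.natAbs ^ 2, ?_⟩
      rw [h0 χ hχ e, Complex.norm_conj, hd, Complex.norm_intCast, sq_abs]
      simp [mul_pow]
    · push Not at e
      obtain ⟨i, hi, e⟩ := e
      refine ⟨0, ?_⟩
      rcases Dirr.eq_or_neg (Irr.Dirr hχ) (hf i hi) e with e | e <;>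
        simp [e, dot_neg_right, h.dot_sub_proj _ hi]
  choose! d hd' using h2
  rw [nrm_ci, CF.nrm_eq_sum hR, Finset.sum_congr rfl hd', ← Finset.mul_sum, ← Nat.cast_sum,
    Finset.sum_congr rfl fun i hi => by rw [ci_dot (Dirr.inv (hf i hi)), Complex.norm_conj]] at h1
  rw [show centralizer ({1} : Set G) = ⊤ from eq_top_iff.2 fun x _ => mem_cent1.2 (by simp),
    card_top] at h1
  refine ⟨_, h1, fun e χ hχ => ?_⟩
  have h3 := hd' χ hχ
  rw [Finset.sum_eq_zero_iff.1 e χ hχ] at h3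
  by_contra h4
  push Not at h4
  rw [h0 χ hχ fun i hi => Dirr.dot_eq_zero (Irr.Dirr hχ) (hf i hi) (h4 i hi).1 (h4 i hi).2] at h3
  exact Irr.one_ne hχ (by simpa using h3)

theorem bound_inv {A : Subgroup G} (h : SS A) (ho : Odd (Nat.card A)) {u : G} (hu : orderOf u = 2)
    (hN : u ∈ normalizer (A : Set G))
    (hc : ∀ x y : G, orderOf x = 2 → orderOf y = 2 → IsConj x y) (hα : α ∈ Dirr ⊤)
    (hv : ∀ y ∈ conjSet A, α y = 0) {d T : ℤ} (hd : α 1 = d) (hT : α u = T) :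
    Nat.card A * T * d ≤ d ^ 2 := by
  obtain ⟨e, he, χ, hχ, rfl⟩ := Dirr.exists_sign hα
  have h0 : e ≠ 0 := by rcases he with rfl | rfl <;> simp
  have hs := mul_self_of_orderOf_two hu
  have hn := SS.inv_nmem ho hu
  have hD : ∀ g, g ∈ A ⊔ zpowers u ↔ g ∈ A ∨ g * u ∈ A := fun g => by
    constructor
    · intro hg
      obtain ⟨x, hx, k, rfl⟩ := (H3.mem_sup_zpowers_iff hN).1 hg
      rcases (mem_zpowers_invol hs).1 (zpow_mem_zpowers u k) with e | e <;> rw [e]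
      exacts [Or.inl (by simpa using hx), Or.inr (by simpa [mul_assoc, hs] using hx)]
    · rintro (hg | hg)
      · exact mem_sup_left hg
      · simpa using mul_mem (mem_sup_left hg) (inv_mem (mem_sup_right (mem_zpowers u)))
  have h1 : ∀ g, g * u ∈ A → g ∉ A := fun g h1 h2 => hn ((mul_mem_cancel_left h2).1 h1)
  let sg : G → ℂ := fun g => (if g ∈ A then 1 else 0) - if g * u ∈ A then 1 else 0
  have s1 : ∀ g ∈ A, sg g = 1 := fun g hg => by simp [sg, hg, show g * u ∉ A from fun e => h1 g e hg]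
  have s2 : ∀ g, g * u ∈ A → sg g = -1 := fun g hg => by simp [sg, hg, h1 g hg]
  have hs0 : Supp (A ⊔ zpowers u : Subgroup G) sg := fun g hg => by
    have := (hD g).not.1 hg
    push Not at this
    simp [sg, this]
  have hsg : sg ∈ Irr (A ⊔ zpowers u) := mem_Irr_of_mul hs0 (s1 1 (one_mem A)) fun x hx y hy => by
    rcases (hD x).1 hx with hx | hx <;> rcases (hD y).1 hy with hy | hy
    · rw [s1 x hx, s1 y hy, s1 _ (mul_mem hx hy), one_mul]
    · rw [s1 x hx, s2 y hy, s2 _ (by rw [mul_assoc]; exact mul_mem hx hy), one_mul]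
    · rw [s2 x hx, s1 y hy, s2 _ (by
        rw [show x * y * u = x * u * (u⁻¹ * y * u⁻¹⁻¹) by group]
        exact mul_mem hx (nconj (inv_mem hN) hy)), mul_one]
    · rw [s2 x hx, s2 y hy, s1 _ (by
        rw [show x * y = x * u * (u * (y * u) * u⁻¹) by simp [mul_assoc, ← mul_assoc u u, hs]]
        exact mul_mem hx (nconj hN hy))]
      simp
  obtain ⟨k, hk⟩ := (Irr.char hχ).dot_nat_le le_top (Irr.char hsg)
  rw [dot, inv_mul_eq_iff_eq_mul₀ (cardC_ne _), Finset.sum_subset (Finset.subset_univ _)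
    (fun x _ hx => by rw [hs0 x fun e => hx (mem_fs.2 e)]; simp),
    Finset.sum_congr rfl (g := fun x => (if x = 1 then χ 1 else 0) - if x * u ∈ A then χ u else 0)
      fun x _ => by
      by_cases h2 : x ∈ A
      · rw [s1 x h2, if_neg fun e => h1 x e h2]
        split_ifs with h3
        · simp [h3]
        · simpa [h0] using hv x (mem_conjSet_of_mem h3 h2)
      by_cases h3 : x * u ∈ A
      · obtain ⟨c, rfl⟩ := isConj_iff.1 (hc u x hu (h.out_ord ho hu hN h3))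
        rw [s2 _ h3, if_pos h3, if_neg fun e => h2 (by rw [e]; exact one_mem A), Irr.inv hχ c trivial]
        simp
      · simp [sg, h2, h3, show x ≠ 1 from fun e => h2 (e ▸ one_mem A)],
    Finset.sum_sub_distrib, Finset.sum_ite_eq', ← Finset.sum_filter, Finset.sum_const,
    ← natCard_subtype_eq, SS.card_out, if_pos (Finset.mem_univ _), nsmul_eq_mul] at hk
  have h2 : (d ^ 2 - Nat.card A * T * d : ℂ) = Nat.card (A ⊔ zpowers u : Subgroup G) * k * deg χ := by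
    rw [← hk, ← hd, ← hT, Irr.deg_eq hχ]
    rcases he with rfl | rfl <;> simp <;> ring
  have h3 : d ^ 2 - Nat.card A * T * d = Nat.card (A ⊔ zpowers u : Subgroup G) * k * deg χ := by
    exact_mod_cast h2
  have : (0 : ℤ) ≤ Nat.card (A ⊔ zpowers u : Subgroup G) * k * deg χ := by positivity
  linarith

theorem four_classes {θ₁ θ₂ : G → ℂ} (g : Fin 4 → G) (hg : ∀ i j, IsConj (g i) (g j) → i = j)
    (h : ∀ χ ∈ Irr (⊤ : Subgroup G), ∃ u v w : ℂ, ∀ i, χ (g i) = u + v * θ₁ (g i) + w * θ₂ (g i)) :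
    False := by
  have h1 : ¬ LinearIndependent ℂ fun i : Fin 4 => (![1, θ₁ (g i), θ₂ (g i)] : Fin 3 → ℂ) :=
    fun e => by simpa using e.fintype_card_le_finrank
  obtain ⟨l, h2, i, hi⟩ := Fintype.not_linearIndependent_iff.1 h1
  have a0 := congrFun h2 0
  have a1 := congrFun h2 1
  have a2 := congrFun h2 2
  simp only [Finset.sum_apply, Pi.smul_apply, smul_eq_mul, Matrix.cons_val_zero, Matrix.cons_val_one,
    Pi.zero_apply, Matrix.cons_val] at a0 a1 a2
  have h3 : ∑ j, l j * ci (g i) (g j) = 0 := by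
    simp only [CF.apply_eq_sum (ci_CF (g i)), Finset.mul_sum]
    rw [Finset.sum_comm]
    refine Finset.sum_eq_zero fun χ hχ => ?_
    obtain ⟨u, v, w, e⟩ := h χ hχ
    simp only [e]
    simp only [Fin.sum_univ_four] at a0 a1 a2 ⊢
    linear_combination dot ⊤ (ci (g i)) χ * (u * a0 + v * a1 + w * a2)
  rw [Finset.sum_eq_single i (fun j _ e => by
    rw [ci, if_neg fun e' => e (hg _ _ e').symm, mul_zero]) (by simp), ci, if_pos (IsConj.refl _)] at h3
  exact hi ((mul_eq_zero.1 h3).resolve_right (cardC_ne _))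

end Cfsg.Agent.SSC
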