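/-
A strongly self-centralizing subgroup of index two in its normalizer.
-/
import Cfsg.Agent.SSC.E

set_option autoImplicit false
set_option linter.unusedSectionVars false
set_option linter.style.haveILetI false

namespace Cfsg.Agent.SSC

open Cfsg.Agent.H4 Subgroup Cfsg.Agent.H11 Cfsg.Agent.H15 Cfsg.Agent.H22 Classical
open scoped ComplexConjugate

variable {G : Type*} [Group G] [Fintype G] {φ ψ α a b : G → ℂ}

theorem SS.fam {A : Subgroup G} (h : SS A) {w : ℕ} (hw : aw A = w) : Fam w (TT A) where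
  vc _ := TT_VC
  self β hβ := rd_of_dot (by rw [h.TT_dot hβ hβ, hw]; simp)
  ne β hβ γ hγ e := rd_of_dot (by rw [h.TT_dot hβ hγ, hw]; simp [e])

theorem SS.odd {A : Subgroup G} (h : SS A) (hw : Even (aw A)) : Odd (Nat.card A) := by
  rw [← h.card_TT]; exact (hw.mul_left _).add_one

theorem SS.val' {A : Subgroup G} (h : SS A) (hφ : φ ∈ VC ⊤) (h0 : rd φ 1 = 0) (c : ℤ)
    (h2 : ∀ β ∈ TT A, rd φ β = c) :
    (∃ M : ℤ, φ 1 = (c + M * Nat.card A : ℤ)) ∧ ∀ y ∈ conjSet A, φ y = c :=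
  h.val hφ (by rw [dot_rd hφ (Dirr.VC one_Dirr), h0]; simp) c fun β hβ => by
    rw [dot_rd hφ (TT_VC hβ), h2 β hβ]; simp

theorem rd_one_TT {A : Subgroup G} {β : G → ℂ} (hβ : β ∈ TT A) : rd 1 β = 0 :=
  rd_of_dot (by simpa using one_dot_TT hβ)

theorem perp_one' {A : Subgroup G} {β : G → ℂ} (hβ : β ∈ TT A) (ha : a ∈ Dirr ⊤)
    (h : rd a β ≠ 0) : rd a 1 = 0 :=
  rd_comm 1 a ▸ perp_of one_Dirr ha β (rd_one_TT hβ) h

theorem card_filter_conjSet (A : Subgroup G) :
    (Finset.univ.filter (· ∈ conjSet A)).card = Nat.card (conjSet A) :=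
  (natCard_subtype_eq _).symm

/-- the outcome of the analysis of the first subgroup -/
structure S1 (A : Subgroup G) (t : G) (a : G → ℂ) (v : G → ℤ) (j : ℤ) : Prop where
  ht : orderOf t = 2
  cj : ∀ x y : G, orderOf x = 2 → orderOf y = 2 → IsConj x y
  ha : a ∈ Dirr ⊤
  h1 : ∀ τ ∈ TT A, rd a τ = 1
  hv : ∀ g, a g = v g
  one : rd a 1 = 0
  val : ∀ y ∈ conjSet A, v y = 1
  deg : ∃ l : ℤ, v 1 = 1 + l * Nat.card A
  pos : 0 < v 1 * (v 1 + 1)
  card : (Nat.card G : ℤ) = Nat.card A * (v 1 * (v 1 + 1)) * j ^ 2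
  cent : (Nat.card (centralizer ({t} : Set G)) : ℤ) = (v 1 - v t) * j
  par : 2 ∣ v 1 - v t
  sum : ∑ g ∈ Finset.univ.filter (fun g => g ≠ 1 ∧ g ∉ conjSet A), v g * (v g + 1) =
    v 1 * (v 1 + 1) * (j ^ 2 - 1)
  sum0 : ∑ g, v g = 0

theorem SS.s1 [IsSimpleGroup G] {A : Subgroup G} (h : SS A) (hw : aw A = 2) (h5 : 5 ≤ Nat.card A) :
    ∃ t a v j, S1 A t a v j := by
  have ho := h.odd (hw ▸ even_two)
  have hA : A ≠ ⊥ := fun e => by rw [e, card_bot] at h5; omega
  have hF : Fam 2 (TT A) := by exact_mod_cast h.fam hw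
  have hc := h.card_TT
  rw [hw] at hc
  obtain ⟨t, ht, hN⟩ := SS.exists_inv ho (hw ▸ even_two)
  obtain ⟨a, ha, h1⟩ := exists_a hF (fun β => h.TT_one) (by omega)
  obtain ⟨σ, hσ, τ, hτ, hne⟩ := Finset.one_lt_card.1 (show 1 < (TT A).card by omega)
  have h0 : rd a 1 = 0 := perp_one' hτ ha (by rw [h1 τ hτ]; norm_num)
  have h0' : dot ⊤ a 1 = 0 := by rw [dot_rd (Dirr.VC ha) (Dirr.VC one_Dirr), h0]; simp
  obtain ⟨⟨l, hl⟩, hval⟩ := h.val' (Dirr.VC ha) h0 1 (by simpa using h1)
  have hb := b_D hF ha h1 hτ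
  have hb1 : (τ - a) 1 = -1 - a 1 := by rw [Pi.sub_apply, h.TT_one hτ]
  have hbs : ∀ s, orderOf s = 2 → (τ - a) s = -1 - a s := fun s hs => by
    rw [Pi.sub_apply, TT_of_nmem hτ (ne_one_of_orderOf_two hs)
      (SS.nmem_of_dvd Nat.prime_two hs.symm.dvd ho.not_two_dvd_nat)]
  have a0 := Dirr.one_ne ha
  have b0 := Dirr.one_ne hb
  -- one class of involutions
  have cj : ∀ s, orderOf s = 2 → IsConj t s := fun s hs => by
    by_contra h2
    have h3 : ∀ x ∈ Finset.univ.filter (IsConj s), ∀ y ∈ Finset.univ.filter (IsConj s),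
        (τ - a) (x * y) = -(1 : G → ℂ) (x * y) - a (x * y) := fun x hx y hy => by
      replace hx := (Finset.mem_filter.1 hx).2
      replace hy := (Finset.mem_filter.1 hy).2
      have ox := (orderOf_eq_of_isConj hx).symm.trans hs
      have oy := (orderOf_eq_of_isConj hy).symm.trans hs
      rw [Pi.sub_apply, Pi.one_apply]
      by_cases h3 : x * y = 1
      · rw [h3, h.TT_one hτ]
      rw [TT_of_nmem hτ h3 fun ⟨_, g, hg⟩ => h2 ?_]
      have h4 := invol_inverts_left (mul_self_of_orderOf_two ox) (mul_self_of_orderOf_two oy)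
      have h6 := h.norm_of_inv (v := g * x * g⁻¹) hg (conj_ne_one h3) (by
        rw [conj_inv (a := x * y), ← h4]; group)
      have h7 := h.mul_mem_of_inv ho hA ht hN ((orderOf_conj g x).trans ox) h6
      obtain ⟨k, hk⟩ := odd_orderOf_of_odd_card ho h7
      have h8 : IsConj t (g * x * g⁻¹) := by
        generalize g * x * g⁻¹ = w at h7 hk
        have h9 := h.inverts ho ht hN (inv_mem (pow_mem h7 (k + 1)))
        rw [inv_inv, mul_inv_eq_iff_eq_mul] at h9
        refine isConj_iff.2 ⟨(w * t) ^ (k + 1), ?_⟩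
        rw [mul_assoc, h9, ← mul_assoc, ← pow_add, show k + 1 + (k + 1) = 2 * k + 1 + 1 by ring,
          pow_succ, ← hk, pow_orderOf_eq_one, one_mul, mul_assoc, mul_self_of_orderOf_two ht, mul_one]
      exact (h8.trans (isConj_iff.2 ⟨g, rfl⟩).symm).trans hx.symm
    have h4 := D_class hb s
    have h6 := D_class ha s
    have h7 := D_class one_Dirr s
    rw [Finset.sum_congr rfl fun x hx => Finset.sum_congr rfl (h3 x hx), hb1, hbs s hs] at h4
    simp only [Finset.sum_sub_distrib, Finset.sum_neg_distrib] at h4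
    rw [Pi.one_apply (i := 1), Pi.one_apply (i := s)] at h7
    have h8 : ((centralizer ({s} : Set G)).index : ℂ) ^ 2 * (a s - a 1) ^ 2 = 0 := by
      linear_combination a 1 * h4 - (1 + a 1) * h6 - a 1 * (1 + a 1) * h7
    have h9 := (mul_eq_zero.1 h8).resolve_left
      (pow_ne_zero 2 (Nat.cast_ne_zero.2 index_ne_zero_of_finite))
    exact ne_one_of_orderOf_two hs (D_faithful ha h0' (sub_eq_zero.1 (pow_eq_zero_iff two_ne_zero |>.1 h9)))
  have cj' : ∀ x y : G, orderOf x = 2 → orderOf y = 2 → IsConj x y := fun x y hx hy =>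
    (cj x hx).symm.trans (cj y hy)
  -- integrality
  have hint : ∀ g, ∃ n : ℤ, a g = n := fun g => VC.exists_int_of_aut (Dirr.VC ha) fun ρ => by
    have h2 : ∀ β ∈ TT A, rd (aut ρ a) (aut ρ β) = 1 := fun β hβ => by
      rw [rd, VC.dot_aut' ρ (Dirr.VC ha) (TT_VC hβ)]; exact h1 β hβ
    have h3 := Dirr.aut ρ ha
    refine congrFun (show aut ρ a = a from by_contra fun h4 => hne (aut_injective ρ ?_)) g
    have h6 : ∀ β ∈ TT A, aut ρ a = aut ρ β - a := fun β hβ => by
      have h6 := aut_TT hβ ρ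
      refine eq_of_rd_one h3 (b_D hF ha h1 h6) ?_
      rcases rd_cases h3 ha with e | e | e
      · exact (h4 e).elim
      · have := h2 β hβ
        rw [e] at this
        simp only [rd_lin] at this
        linarith [h1 _ h6]
      · simp only [rd_lin]; linarith [h2 β hβ]
    exact sub_left_injective ((h6 σ hσ).symm.trans (h6 τ hτ))
  choose v hv using hint
  have v1 : v 1 = 1 + l * Nat.card A := by exact_mod_cast (hv 1).symm.trans hl
  have v0 : v 1 ≠ 0 := fun e => a0 (by rw [hv, e]; simp)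
  have v2 : v 1 + 1 ≠ 0 := fun e => b0 (by
    rw [hb1, hv, eq_neg_of_add_eq_zero_left e]; simp)
  have pos : 0 < v 1 * (v 1 + 1) := by
    rcases (show v 1 < -1 ∨ 0 < v 1 by omega) with e | e <;> nlinarith
  obtain ⟨T, hT, par⟩ := D_inv ha (hv 1) ht
  obtain rfl : T = v t := by exact_mod_cast hT.symm.trans (hv t)
  have hform : (Nat.card A : ℤ) * Nat.card (centralizer ({t} : Set G)) * (v 1 * (v 1 + 1)) =
      (centralizer ({t} : Set G)).index * (v 1 - v t) ^ 2 := by
    have h2 := h.TT_cI ho ht hN hτ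
    have h3 := cI_Dirr ht cj' ha
    have h4 := cI_Dirr ht cj' hb
    have h6 := cI_Dirr ht cj' one_Dirr
    rw [hb1, hbs t ht, dot_sub_left, h2] at h4
    simp only [hv, Pi.one_apply] at h3 h4 h6
    have : (Nat.card A : ℂ) * Nat.card (centralizer ({t} : Set G)) * (v 1 * (v 1 + 1)) =
      (centralizer ({t} : Set G)).index * (v 1 - v t) ^ 2 := by
      linear_combination -(v 1 : ℂ) * h4 + (v 1 + 1 : ℂ) * h3 + (v 1 : ℂ) * (v 1 + 1) * h6
    exact_mod_cast this
  obtain ⟨J, hJ⟩ : (Nat.card A : ℤ) * (v 1 * (v 1 + 1)) ∣ Nat.card G := by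
    obtain ⟨s, hs⟩ := ho
    have hs' : (Nat.card A : ℤ) = 2 * s + 1 := by exact_mod_cast hs
    refine IsCoprime.mul_dvd (IsCoprime.mul_right ⟨-l, 1, by linear_combination v1⟩
      ⟨1 + s * l, -s, by rw [v1, hs']; ring⟩) (by exact_mod_cast card_subgroup_dvd_card A)
      (IsCoprime.mul_dvd ⟨-1, 1, by ring⟩ (D_deg ha (hv 1)) ?_)
    exact (Int.neg_dvd.1 (D_deg hb (d := -(v 1 + 1)) (by rw [hb1, hv]; push_cast; ring)))
  have hg : (Nat.card (centralizer ({t} : Set G)) : ℤ) * (centralizer ({t} : Set G)).index =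
      Nat.card G := by exact_mod_cast card_mul_index _
  have n0 : (0 : ℤ) < Nat.card A := by exact_mod_cast Nat.card_pos
  have hc2 : (Nat.card (centralizer ({t} : Set G)) : ℤ) ^ 2 = J * (v 1 - v t) ^ 2 := by
    refine mul_left_cancel₀ (mul_pos n0 pos).ne' ?_
    linear_combination (Nat.card (centralizer ({t} : Set G)) : ℤ) * hform +
      (v 1 - v t) ^ 2 * (hg.trans hJ)
  obtain ⟨j, hj⟩ : v 1 - v t ∣ Nat.card (centralizer ({t} : Set G)) :=
    (Int.pow_dvd_pow_iff two_ne_zero).1 (hc2 ▸ dvd_mul_left _ _)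
  have c0 : (0 : ℤ) < Nat.card (centralizer ({t} : Set G)) := by exact_mod_cast Nat.card_pos
  obtain rfl : J = j ^ 2 := by
    have : v 1 - v t ≠ 0 := fun e => by rw [hj, e] at c0; simp at c0
    refine mul_right_cancel₀ (pow_ne_zero 2 this) ?_
    rw [← hc2, hj]; ring
  have s0 : ∑ g, v g = 0 := by
    have := sum_dot a 1
    rw [h0'] at this
    simp only [hv, Pi.one_apply, map_one, mul_one, mul_zero] at this
    exact_mod_cast this
  have s2 : ∑ g, v g * (v g + 1) = Nat.card G := by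
    have := sum_dot a a
    rw [Dirr.dot_self ha] at this
    simp only [hv, map_intCast, mul_one] at this
    simp only [mul_add, mul_one, Finset.sum_add_distrib, s0, add_zero]
    exact_mod_cast this
  have val : ∀ y ∈ conjSet A, v y = 1 := fun y hy => by exact_mod_cast (hv y).symm.trans (hval y hy)
  refine ⟨t, a, v, j, ht, cj', ha, h1, hv, h0, val, ⟨l, v1⟩, pos, hJ, hj, par, ?_, s0⟩
  have s3 : ∀ g, v g * (v g + 1) = (if g ≠ 1 ∧ g ∉ conjSet A then v g * (v g + 1) else 0) +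
      (if g = 1 then v g * (v g + 1) else 0) + if g ∈ conjSet A then 2 else 0 := fun g => by
    by_cases e : g ∈ conjSet A
    · simp [e, e.1, val g e]
    · by_cases e' : g = 1 <;> simp [e, e']
      rw [e'] at e; exact e
  rw [Finset.sum_congr rfl fun g _ => s3 g, Finset.sum_add_distrib, Finset.sum_add_distrib,
    Finset.sum_ite_eq', ← Finset.sum_filter, ← Finset.sum_filter, Finset.sum_const,
    card_filter_conjSet, if_pos (Finset.mem_univ _), nsmul_eq_mul] at s2
  have s4 := h.card_conjSet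
  rw [hw] at s4
  zify [show 1 ≤ Nat.card A by omega] at s4
  refine mul_left_cancel₀ n0.ne' ?_
  linear_combination (Nat.card A : ℤ) * s2 - s4 + hJ

end Cfsg.Agent.SSC
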