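/-
Self-centralization systems of type (2,4,4): the characters.
-/
import Cfsg.Agent.SSC.F
import Cfsg.Agent.SSC.D

set_option autoImplicit false
set_option linter.unusedSectionVars false
set_option linter.style.haveILetI false

namespace Cfsg.Agent.SSC

open Cfsg.Agent.H4 Subgroup Cfsg.Agent.H11 Cfsg.Agent.H15 Cfsg.Agent.H22 Classical
open scoped ComplexConjugate

variable {G : Type*} [Group G] [Fintype G]

/-- a self-centralization system -/
structure SY (A B C : Subgroup G) (s r₂ r₃ m : ℕ) : Prop where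
  sA : SS A
  sB : SS B
  sC : SS C
  wA : aw A = 2
  wB : aw B = 4
  wC : aw C = 4
  tA : (TT A).card = s
  tB : (TT B).card = r₂
  tC : (TT C).card = r₃
  nA : Nat.card A = 2 * s + 1
  nB : Nat.card B = 4 * r₂ + 1
  nC : Nat.card C = 4 * r₃ + 1
  lA : 2 ≤ s
  lB : 2 ≤ r₂
  lC : 2 ≤ r₃
  cAB : (Nat.card A).Coprime (Nat.card B)
  cAC : (Nat.card A).Coprime (Nat.card C)
  cBC : (Nat.card B).Coprime (Nat.card C)
  card : Nat.card G = Nat.card A * Nat.card B * Nat.card C * m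
  cm : m.Coprime (Nat.card A * Nat.card B * Nat.card C)
  le : m ≤ 3 * (Nat.card A * Nat.card B * Nat.card C)

theorem exists_SY {A B C : Subgroup G} (sA : SS A) (sB : SS B) (sC : SS C) (wA : aw A = 2)
    (wB : aw B = 4) (wC : aw C = 4) (nA : 5 ≤ Nat.card A) (nB : 5 < Nat.card B)
    (nC : 5 < Nat.card C) (cAB : (Nat.card A).Coprime (Nat.card B))
    (cAC : (Nat.card A).Coprime (Nat.card C)) (cBC : (Nat.card B).Coprime (Nat.card C))
    (le : Nat.card G ≤ 3 * Nat.card A ^ 2 * Nat.card B ^ 2 * Nat.card C ^ 2) :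
    ∃ s r₂ r₃ m, SY A B C s r₂ r₃ m := by
  have h1 := sA.card_TT
  have h2 := sB.card_TT
  have h3 := sC.card_TT
  rw [wA] at h1
  rw [wB] at h2
  rw [wC] at h3
  obtain ⟨m, hm⟩ : Nat.card A * Nat.card B * Nat.card C ∣ Nat.card G :=
    (cAC.mul_left cBC).mul_dvd_of_dvd_of_dvd (cAB.mul_dvd_of_dvd_of_dvd (card_subgroup_dvd_card A)
      (card_subgroup_dvd_card B)) (card_subgroup_dvd_card C)
  have h4 : ∀ D : Subgroup G, SS D → ∀ k, Nat.card G = Nat.card D * (k * m) →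
      m.Coprime (Nat.card D) := fun D hD k e => by
    rw [← card_mul_index D] at e
    exact (hD.coprime_index.coprime_dvd_right
      (Dvd.intro_left k (Nat.eq_of_mul_eq_mul_left Nat.card_pos e).symm)).symm
  refine ⟨_, _, _, m, sA, sB, sC, wA, wB, wC, rfl, rfl, rfl, by omega, by omega, by omega, by omega,
    by omega, by omega, cAB, cAC, cBC, hm, ((h4 A sA (Nat.card B * Nat.card C) (by rw [hm]; ring)).mul_right
      (h4 B sB (Nat.card A * Nat.card C) (by rw [hm]; ring))).mul_right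
      (h4 C sC (Nat.card A * Nat.card B) (by rw [hm]; ring)), ?_⟩
  refine Nat.le_of_mul_le_mul_left (c := Nat.card A * Nat.card B * Nat.card C) ?_ (by positivity)
  rw [← hm]; exact le.trans_eq (by ring)

namespace SY

variable {A B C : Subgroup G} {s r₂ r₃ m : ℕ} (h : SY A B C s r₂ r₃ m)
include h

theorem swap : SY A C B s r₃ r₂ m :=
  ⟨h.sA, h.sC, h.sB, h.wA, h.wC, h.wB, h.tA, h.tC, h.tB, h.nA, h.nC, h.nB, h.lA, h.lC, h.lB, h.cAC,
    h.cAB, h.cBC.symm, by rw [h.card]; ring, by rw [mul_right_comm]; exact h.cm,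
    by rw [mul_right_comm]; exact h.le⟩

theorem five : 5 ≤ r₂ + r₃ := by
  have h1 := h.cBC
  have h2 := h.lB
  have h3 := h.lC
  by_contra h4
  rw [h.nB, h.nC, show r₂ = 2 by omega, show r₃ = 2 by omega] at h1
  norm_num at h1

theorem oA : Odd (Nat.card A) := ⟨s, h.nA⟩
theorem oB : Odd (Nat.card B) := ⟨2 * r₂, by rw [h.nB]; ring⟩
theorem oC : Odd (Nat.card C) := h.swap.oB
theorem fA : Fam 2 (TT A) := by exact_mod_cast h.sA.fam h.wA
theorem fB : Fam 4 (TT B) := by exact_mod_cast h.sB.fam h.wB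
theorem fC : Fam 4 (TT C) := h.swap.fB
theorem xAB : ∀ τ ∈ TT A, ∀ β ∈ TT B, rd τ β = -1 := fun _ hτ _ hβ =>
  rd_of_dot (by rw [h.sA.TT_cross h.sB h.cAB hτ hβ]; simp)
theorem xAC : ∀ τ ∈ TT A, ∀ β ∈ TT C, rd τ β = -1 := h.swap.xAB
theorem xBC : ∀ τ ∈ TT B, ∀ β ∈ TT C, rd τ β = -1 := fun _ hτ _ hβ =>
  rd_of_dot (by rw [h.sB.TT_cross h.sC h.cBC hτ hβ]; simp)

theorem cent_dvd {x : G} (h1 : x ≠ 1) (hA : x ∉ conjSet A) (hB : x ∉ conjSet B)
    (hC : x ∉ conjSet C) : Nat.card (centralizer ({x} : Set G)) ∣ m :=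
  (((h.sA.coprime_cent h1 hA).mul_right (h.sB.coprime_cent h1 hB)).mul_right
    (h.sC.coprime_cent h1 hC)).dvd_of_dvd_mul_left (h.card ▸ card_subgroup_dvd_card _)

theorem nmem {x : G} {p : ℕ} (hp : p.Prime) (hx : p ∣ orderOf x)
    (hd : ¬ p ∣ Nat.card A * Nat.card B * Nat.card C) :
    x ≠ 1 ∧ x ∉ conjSet A ∧ x ∉ conjSet B ∧ x ∉ conjSet C :=
  ⟨fun e => hp.one_lt.ne' (by simpa [e] using hx),
    SS.nmem_of_dvd hp hx fun e => hd ((e.mul_right _).mul_right _),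
    SS.nmem_of_dvd hp hx fun e => hd ((e.mul_left _).mul_right _),
    SS.nmem_of_dvd hp hx fun e => hd (e.mul_left _)⟩

theorem two_nd : ¬ 2 ∣ Nat.card A * Nat.card B * Nat.card C :=
  ((h.oA.mul h.oB).mul h.oC).not_two_dvd_nat

theorem cardA : Nat.card (conjSet A) * Nat.card A = Nat.card G * s := by
  have := h.sA.card_conjSet
  rw [h.wA, h.nA, Nat.add_sub_cancel, ← h.nA] at this
  linarith

theorem cardB : Nat.card (conjSet B) * Nat.card B = Nat.card G * r₂ := by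
  have := h.sB.card_conjSet
  rw [h.wB, h.nB, Nat.add_sub_cancel, ← h.nB] at this
  linarith

theorem cardC : Nat.card (conjSet C) * Nat.card C = Nat.card G * r₃ := h.swap.cardB

theorem count {t : G} (ht : orderOf t = 2)
    (cj : ∀ x y : G, orderOf x = 2 → orderOf y = 2 → IsConj x y) :
    Nat.card (centralizer ({t} : Set G)) ^ 2 * (s + r₂ + r₃) ≤ Nat.card G := by
  obtain ⟨u₁, o₁, n₁⟩ := SS.exists_inv h.oA (h.wA ▸ by decide)
  obtain ⟨u₂, o₂, n₂⟩ := SS.exists_inv h.oB (h.wB ▸ by decide)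
  obtain ⟨u₃, o₃, n₃⟩ := SS.exists_inv h.oC (h.wC ▸ by decide)
  have h1 := sum_invPairs (G := G)
  rw [natCard_congr_iff (r := IsConj t) fun x =>
    ⟨cj t x ht, fun e => (orderOf_eq_of_isConj e).symm.trans ht⟩, H4.card_isConj_eq_index] at h1
  have h2 : ∑ x : G, ((if x ∈ conjSet A then Nat.card A else 0) +
      (if x ∈ conjSet B then Nat.card B else 0) + if x ∈ conjSet C then Nat.card C else 0) ≤
      ∑ x : G, invPairs x := Finset.sum_le_sum fun x _ => by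
    by_cases e1 : x ∈ conjSet A
    · rw [h.sA.invPairs_eq h.oA o₁ n₁ e1]
      simp [e1, SS.nmem_of_coprime e1 h.cAB, SS.nmem_of_coprime e1 h.cAC]
    by_cases e2 : x ∈ conjSet B
    · rw [h.sB.invPairs_eq h.oB o₂ n₂ e2]
      simp [e1, e2, SS.nmem_of_coprime e2 h.cBC]
    by_cases e3 : x ∈ conjSet C
    · rw [h.sC.invPairs_eq h.oC o₃ n₃ e3]
      simp [e1, e2, e3]
    · simp [e1, e2, e3]
  simp only [Finset.sum_add_distrib, ← Finset.sum_filter, Finset.sum_const, card_filter_conjSet,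
    smul_eq_mul, h.cardA, h.cardB, h.cardC, h1] at h2
  refine Nat.le_of_mul_le_mul_left (c := Nat.card G) ?_ Nat.card_pos
  calc _ = Nat.card (centralizer ({t} : Set G)) ^ 2 *
        (Nat.card G * s + Nat.card G * r₂ + Nat.card G * r₃) := by ring
    _ ≤ _ := Nat.mul_le_mul_left _ h2
    _ = _ := by rw [← mul_pow, card_mul_index, sq]

variable {t : G} {a : G → ℂ} {v : G → ℤ} {j : ℤ} (k : S1 A t a v j)
include k

theorem bound {α : G → ℂ} (hα : α ∈ Dirr ⊤) (hv : ∀ y ∈ conjSet B, α y = 0) {d T : ℤ}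
    (hd : α 1 = d) (hT : α t = T) : (4 * r₂ + 1) * T * d ≤ d ^ 2 := by
  obtain ⟨u, o, n⟩ := SS.exists_inv h.oB (h.wB ▸ by decide)
  obtain ⟨c, rfl⟩ := isConj_iff.1 (k.cj t u k.ht o)
  have := bound_inv h.sB h.oB o n k.cj hα hv hd ((Dirr.inv hα c trivial t).trans hT)
  rw [h.nB] at this
  exact_mod_cast this

theorem c_dvd : (Nat.card (centralizer ({t} : Set G)) : ℤ) ∣ m := by
  obtain ⟨h1, h2, h3, h4⟩ := h.nmem Nat.prime_two k.ht.symm.dvd h.two_nd
  exact_mod_cast h.cent_dvd h1 h2 h3 h4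

theorem not_II (h2 : ∀ β ∈ TT B, rd a β = 0) (h3 : ∀ γ ∈ TT C, rd a γ = -1) : False := by
  have h4 := card_le_three h.fA k.ha k.h1 h.fB (h.tB ▸ h.lB) h.xAB h2
  have h5 := h.lA
  obtain ⟨τ, hτ⟩ := Finset.card_pos.1 (show 0 < (TT A).card by rw [h.tA]; omega)
  have hb := b_D h.fA k.ha k.h1 hτ
  obtain ⟨⟨u, hu⟩, a2⟩ := h.sB.val' (Dirr.VC k.ha) k.one 0 (by simpa using h2)
  obtain ⟨⟨w, hw⟩, a3⟩ := h.sC.val' (Dirr.VC hb) (by
    simp only [rd_lin]; rw [k.one, rd_comm, rd_one_TT hτ, sub_self]) 0 fun γ hγ => by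
    simp only [rd_lin]; rw [h3 γ hγ, h.xAC τ hτ γ hγ]; simp
  obtain ⟨t1, t2, -⟩ := h.nmem Nat.prime_two k.ht.symm.dvd h.two_nd
  have b1 : (τ - a) 1 = (-1 - v 1 : ℤ) := by simp [h.sA.TT_one hτ, k.hv]
  have b2 : (τ - a) t = (-1 - v t : ℤ) := by simp [TT_of_nmem hτ t1 t2, k.hv]
  have c1 := h.bound k k.ha (by simpa using a2) (k.hv 1) (k.hv t)
  have c2 := h.swap.bound k hb (by simpa using a3) b1 b2
  obtain ⟨l, hl⟩ := k.deg
  have c3 := h.count k.ht k.cj
  have c4 := h.card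
  have c5 := h.le
  have c6 := Nat.isCoprime_iff_coprime.2 (h.cm.coprime_dvd_right
    (Dvd.intro_left (Nat.card A) (mul_assoc _ _ _).symm))
  have c7 := k.card
  have c0 : (0 : ℤ) < Nat.card (centralizer ({t} : Set G)) := by exact_mod_cast Nat.card_pos
  have j0 : j ≠ 0 := fun e => by rw [k.cent, e] at c0; simp at c0
  rw [k.hv] at hu
  rw [b1] at hw
  norm_cast at hu hw
  zify at c3 c4 c5
  rw [h.tA] at h4
  simp only [h.nA, h.nB, h.nC] at hu hw hl c4 c5 c6 c7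
  push_cast at hu hw hl c4 c5 c6 c7
  refine arII (s := s) (r2 := r₂) (r3 := r₃) (J := j ^ 2) (m := m) (l := l) (u := u) (v := -w)
    (by omega) (by exact_mod_cast h.lB) (by exact_mod_cast h.lC) (by exact_mod_cast h.five)
    (by positivity) c0 k.pos (by rw [k.cent]; ring) (c4.symm.trans c7) (c7 ▸ c3) c1
    (by linarith) c5 c6 (h.c_dvd k) hl (by linarith) (by linarith)

theorem type_I : (∀ β ∈ TT B, rd a β = -1) ∧ ∀ γ ∈ TT C, rd a γ = -1 := by
  have h1 := h.tA ▸ h.lA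
  rcases type_cases h.fA k.ha k.h1 h1 h.fB (fun _ => h.sB.TT_one) h.xAB with h2 | h2 <;>
    rcases type_cases h.fA k.ha k.h1 h1 h.fC (fun _ => h.sC.TT_one) h.xAC with h3 | h3
  · exact ⟨h2, h3⟩
  · exact (h.swap.not_II k h3 h2).elim
  · exact (h.not_II k h2 h3).elim
  obtain ⟨β, hβ⟩ := Finset.card_pos.1 (show 0 < (TT B).card by have := h.lB; rw [h.tB]; omega)
  obtain ⟨γ, hγ⟩ := Finset.card_pos.1 (show 0 < (TT C).card by have := h.lC; rw [h.tC]; omega)
  exact (not_both h.fA k.ha k.h1 h1 (h.fB.self β hβ) (h.fC.self γ hγ) (h.xBC β hβ γ hγ)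
    (fun τ hτ => h.xAB τ hτ β hβ) (fun τ hτ => h.xAC τ hτ γ hγ) (h2 β hβ) (h3 γ hγ)).elim

theorem exists_pq : ∃ p ∈ Dirr ⊤, ∃ q ∈ Dirr ⊤, rd p q = 0 ∧
    (∀ β ∈ TT B, rd p (β + a) = 1 ∧ rd q (β + a) = 1) ∧
    ∀ γ ∈ TT C, rd p (γ + a) = -1 ∧ rd q (γ + a) = -1 := by
  obtain ⟨h2, h3⟩ := h.type_I k
  have ha := rd_D k.ha
  have h4 : ∀ β ∈ TT B, ∀ γ ∈ TT C, rd (β + a) (-(γ + a)) = 2 := fun β hβ γ hγ => by
    simp only [rd_lin]; linarith [h.xBC β hβ γ hγ, h2 β hβ, h3 γ hγ, rd_comm a β]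
  have h5 : ∀ β ∈ TT B, rd (β + a) (β + a) = 3 := fun β hβ => by
    simp only [rd_lin]; linarith [h.fB.self β hβ, h2 β hβ, rd_comm a β]
  obtain ⟨p, hp, q, hq, hpq, h6⟩ := exists_pair
    (U := (TT B).image (· + a) ∪ (TT C).image fun γ => -(γ + a)) ⟨fun u hu => by
      simp only [Finset.mem_union, Finset.mem_image] at hu
      obtain ⟨β, hβ, rfl⟩ | ⟨β, hβ, rfl⟩ := hu
      exacts [add_mem (TT_VC hβ) (Dirr.VC k.ha), neg_mem (add_mem (TT_VC hβ) (Dirr.VC k.ha))],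
    fun u hu => by
      simp only [Finset.mem_union, Finset.mem_image] at hu
      obtain ⟨β, hβ, rfl⟩ | ⟨β, hβ, rfl⟩ := hu
      · exact h5 β hβ
      · simp only [rd_lin]; linarith [h.fC.self β hβ, h3 β hβ, rd_comm a β],
    fun u hu w hw e => by
      simp only [Finset.mem_union, Finset.mem_image] at hu hw
      obtain ⟨β, hβ, rfl⟩ | ⟨β, hβ, rfl⟩ := hu <;> obtain ⟨γ, hγ, rfl⟩ | ⟨γ, hγ, rfl⟩ := hw
      · simp only [rd_lin]
        linarith [h.fB.ne β hβ γ hγ fun e' => e (by rw [e']), h2 β hβ, h2 γ hγ, rd_comm a β]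
      · rw [h4 β hβ γ hγ]; norm_num
      · rw [rd_comm, h4 γ hγ β hβ]; norm_num
      · simp only [rd_lin]
        linarith [h.fC.ne β hβ γ hγ fun e' => e (by rw [e']), h3 β hβ, h3 γ hγ, rd_comm a β]⟩ (by
      rw [Finset.card_union_of_disjoint (Finset.disjoint_left.2 fun u hu hw => by
        obtain ⟨β, hβ, rfl⟩ := Finset.mem_image.1 hu
        obtain ⟨γ, hγ, e⟩ := Finset.mem_image.1 hw
        have := h4 β hβ γ hγ
        rw [e, h5 β hβ] at this; norm_num at this),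
        Finset.card_image_of_injective _ (add_left_injective a), Finset.card_image_of_injective _
          (f := fun γ => -(γ + a)) (neg_injective.comp (add_left_injective a)), h.tB, h.tC]
      exact h.five)
  refine ⟨p, hp, q, hq, hpq, fun β hβ => h6 _ (Finset.mem_union_left _ (Finset.mem_image_of_mem _ hβ)),
    fun γ hγ => ?_⟩
  have := h6 _ (Finset.mem_union_right _ (Finset.mem_image_of_mem _ hγ))
  rw [rd_lin.2.2.2.2.2, rd_lin.2.2.2.2.2] at this
  exact ⟨by linarith [this.1], by linarith [this.2]⟩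

end SY

end Cfsg.Agent.SSC
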