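/-
Self-centralization systems of type (2,4,4): the degree equations.
-/
import Cfsg.Agent.SSC.G

set_option autoImplicit false
set_option linter.unusedSectionVars false
set_option linter.style.haveILetI false

namespace Cfsg.Agent.SSC

open Cfsg.Agent.H4 Subgroup Cfsg.Agent.H11 Cfsg.Agent.H15 Cfsg.Agent.H22 Classical
open scoped ComplexConjugate

variable {G : Type*} [Group G] [Fintype G]

/-- orthonormal families of signed irreducible characters -/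
def OR {ι : Type*} (s : Finset ι) (f : ι → G → ℂ) : Prop :=
  (∀ i ∈ s, f i ∈ Dirr ⊤) ∧ ∀ i ∈ s, ∀ j ∈ s, i ≠ j → rd (f i) (f j) = 0

theorem OR.orthon {ι : Type*} {s : Finset ι} {f : ι → G → ℂ} (h : OR s f) : Orthon ⊤ s f :=
  orthon_of (fun i hi => Dirr.dot_self (h.1 i hi)) fun i hi j hj e => by
    rw [dot_rd (Dirr.VC (h.1 i hi)) (Dirr.VC (h.1 j hj)), h.2 i hi j hj e]; simp

theorem fa_sum {ι κ : Type*} {s : Finset ι} {t : Finset κ} {P : ι ⊕ κ → Prop} :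
    (∀ i ∈ s.disjSum t, P i) ↔ (∀ i ∈ s, P (.inl i)) ∧ ∀ j ∈ t, P (.inr j) := by simp

theorem OR.sum {ι κ : Type*} {s : Finset ι} {t : Finset κ} {f : ι → G → ℂ} {g : κ → G → ℂ}
    (h : OR s f) (h' : OR t g) (e : ∀ i ∈ s, ∀ j ∈ t, rd (f i) (g j) = 0) :
    OR (s.disjSum t) (Sum.elim f g) :=
  ⟨fa_sum.2 ⟨h.1, h'.1⟩, fa_sum.2 ⟨fun i hi => fa_sum.2 ⟨fun j hj e => h.2 i hi j hj fun e' => e (by rw [e']),
    fun j hj _ => e i hi j hj⟩, fun i hi => fa_sum.2 ⟨fun j hj _ => (rd_comm _ _).trans (e j hj i hi),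
    fun j hj e => h'.2 i hi j hj fun e' => e (by rw [e'])⟩⟩⟩

/-- the numerical outcome -/
structure S2 (A B C : Subgroup G) (s r₂ r₃ m : ℕ) (t : G) (v : G → ℤ) (p q : G → ℂ)
    (κ y z P Q Y Z : ℤ) (ω : ℕ) : Prop where
  vB : ∀ g ∈ conjSet B, v g = -1
  vC : ∀ g ∈ conjSet C, v g = -1
  hκ : v 1 + 1 = κ * ((4 * r₂ + 1) * (4 * r₃ + 1))
  hy : (2 * s + 1) * (4 * r₃ + 1) * y = v 1 - 1 - P - Q
  hz : (2 * s + 1) * (4 * r₂ + 1) * z = v 1 - 1 + P + Q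
  he : (2 * (s : ℤ) + 1) * (4 * r₂ + 1) * (4 * r₃ + 1) ∣ P - Q
  hP : P ∣ Nat.card G
  hPA : 2 * (s : ℤ) + 1 ∣ P
  hPB : 4 * (r₂ : ℤ) + 1 ∣ P - 1
  hPC : 4 * (r₃ : ℤ) + 1 ∣ P + 1
  sq : (Nat.card G : ℤ) = 1 + v 1 ^ 2 + P ^ 2 + Q ^ 2 + s * (v 1 + 1) ^ 2 +
    r₂ * (v 1 - 1 - P - Q) ^ 2 + r₃ * (v 1 - 1 + P + Q) ^ 2 +
      ((2 * s + 1) * (4 * r₂ + 1) * (4 * r₃ + 1)) ^ 2 * ω
  span : ω = 0 → ∀ χ ∈ Irr (⊤ : Subgroup G), ∃ a b c : ℂ, ∀ g, g ≠ 1 → g ∉ conjSet A →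
    g ∉ conjSet B → g ∉ conjSet C → v g = 0 → χ g = a + b * p g + c * q g
  y0 : y ≠ 0
  z0 : z ≠ 0
  bes : r₂ * Y ^ 2 + r₃ * Z ^ 2 ≤ Nat.card (centralizer ({t} : Set G))
  inv : v t = 0 → (4 * r₂ + 1 + (4 * r₃ + 1) : ℤ) * Nat.card (centralizer ({t} : Set G)) *
    ((v 1 - 1 - P - Q) * (v 1 - 1 + P + Q)) = (centralizer ({t} : Set G)).index *
      (2 * ((v 1 - 1 - P - Q) * (v 1 - 1 + P + Q)) + Y ^ 2 * (v 1 - 1 + P + Q) +
        Z ^ 2 * (v 1 - 1 - P - Q))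
  dk : ∀ g, g ≠ 1 → g ∉ conjSet A → v g = 0 → v 1 + 1 ∣ (centralizer ({g} : Set G)).index

namespace SY

variable {A B C : Subgroup G} {s r₂ r₃ m : ℕ} (h : SY A B C s r₂ r₃ m)
  {t : G} {a : G → ℂ} {v : G → ℤ} {j : ℤ} (k : S1 A t a v j)
include h

theorem cop : IsCoprime (2 * (s : ℤ) + 1) (4 * r₂ + 1) ∧ IsCoprime (2 * (s : ℤ) + 1) (4 * r₃ + 1) ∧
    IsCoprime (4 * (r₂ : ℤ) + 1) (4 * r₃ + 1) := by
  have h1 := Nat.isCoprime_iff_coprime.2 h.cAB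
  have h2 := Nat.isCoprime_iff_coprime.2 h.cAC
  have h3 := Nat.isCoprime_iff_coprime.2 h.cBC
  simp only [h.nA, h.nB, h.nC] at h1 h2 h3
  exact ⟨by exact_mod_cast h1, by exact_mod_cast h2, by exact_mod_cast h3⟩

theorem dA {φ : G → ℂ} (hφ : φ ∈ VC ⊤) (h0 : rd φ 1 = 0) {d : ℤ} (hd : φ 1 = d) (c : ℤ)
    (h2 : ∀ β ∈ TT A, rd φ β = c) : 2 * (s : ℤ) + 1 ∣ d - c := by
  obtain ⟨⟨M, hM⟩, -⟩ := h.sA.val' hφ h0 c h2
  rw [hd, h.nA] at hM
  exact ⟨M, by have := Int.cast_injective hM; push_cast at this; linarith⟩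

theorem dB {φ : G → ℂ} (hφ : φ ∈ VC ⊤) (h0 : rd φ 1 = 0) {d : ℤ} (hd : φ 1 = d) (c : ℤ)
    (h2 : ∀ β ∈ TT B, rd φ β = c) : 4 * (r₂ : ℤ) + 1 ∣ d - c := by
  obtain ⟨⟨M, hM⟩, -⟩ := h.sB.val' hφ h0 c h2
  rw [hd, h.nB] at hM
  exact ⟨M, by have := Int.cast_injective hM; push_cast at this; linarith⟩

include k

theorem s2 : ∃ p q κ y z P Q Y Z ω, S2 A B C s r₂ r₃ m t v p q κ y z P Q Y Z ω := by
  obtain ⟨aB, aC⟩ := h.type_I k
  obtain ⟨p, hp, q, hq, pq, h2, h3⟩ := h.exists_pq k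
  obtain ⟨τ₀, hτ⟩ := Finset.card_pos.1 (show 0 < (TT A).card by have := h.lA; rw [h.tA]; omega)
  obtain ⟨β₀, hβ⟩ := Finset.card_pos.1 (show 0 < (TT B).card by have := h.lB; rw [h.tB]; omega)
  obtain ⟨γ₀, hγ⟩ := Finset.card_pos.1 (show 0 < (TT C).card by have := h.lC; rw [h.tC]; omega)
  have ha := k.ha
  have aA := k.h1
  have hb := fun τ => b_D h.fA ha aA (τ := τ)
  have aa := rd_D ha
  have pp := rd_D hp
  have qq := rd_D hq
  have oo := rd_D (one_Dirr (G := G))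
  have ap : rd a p = 0 := perp_of ha hp (β₀ + a) (by simp only [rd_lin]; linarith [aB _ hβ])
    (by rw [(h2 _ hβ).1]; norm_num)
  have aq : rd a q = 0 := perp_of ha hq (β₀ + a) (by simp only [rd_lin]; linarith [aB _ hβ])
    (by rw [(h2 _ hβ).2]; norm_num)
  have pa := rd_comm p a
  have qa := rd_comm q a
  have qp := rd_comm q p
  have pB : ∀ β ∈ TT B, rd p β = 1 := fun β hβ => by
    have := (h2 _ hβ).1; simp only [rd_lin] at this; linarith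
  have qB : ∀ β ∈ TT B, rd q β = 1 := fun β hβ => by
    have := (h2 _ hβ).2; simp only [rd_lin] at this; linarith
  have pC : ∀ β ∈ TT C, rd p β = -1 := fun β hβ => by
    have := (h3 _ hβ).1; simp only [rd_lin] at this; linarith
  have qC : ∀ β ∈ TT C, rd q β = -1 := fun β hβ => by
    have := (h3 _ hβ).2; simp only [rd_lin] at this; linarith
  have bB : ∀ τ ∈ TT A, ∀ β ∈ TT B, rd (τ - a) β = 0 := fun τ hτ β hβ => by
    simp only [rd_lin]; linarith [h.xAB τ hτ β hβ, aB β hβ]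
  have bC : ∀ τ ∈ TT A, ∀ β ∈ TT C, rd (τ - a) β = 0 := fun τ hτ β hβ => by
    simp only [rd_lin]; linarith [h.xAC τ hτ β hβ, aC β hβ]
  have pA : ∀ τ ∈ TT A, rd p τ = 0 := fun τ hτ => by
    have := perp_of (hb τ hτ) hp β₀ (bB τ hτ _ hβ) (by rw [pB _ hβ]; norm_num)
    simp only [rd_lin] at this; linarith [rd_comm p τ]
  have qA : ∀ τ ∈ TT A, rd q τ = 0 := fun τ hτ => by
    have := perp_of (hb τ hτ) hq β₀ (bB τ hτ _ hβ) (by rw [qB _ hβ]; norm_num)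
    simp only [rd_lin] at this; linarith [rd_comm q τ]
  have ao := k.one
  have po := perp_one' hβ hp (by rw [pB _ hβ]; norm_num)
  have qo := perp_one' hβ hq (by rw [qB _ hβ]; norm_num)
  have oa := rd_comm 1 a
  have op := rd_comm 1 p
  have oq := rd_comm 1 q
  have hy : ∀ β ∈ TT B, β + a - p - q ∈ Dirr ⊤ := fun β hβ =>
    D_of_rd (sub_mem (sub_mem (add_mem (TT_VC hβ) (Dirr.VC ha)) (Dirr.VC hp)) (Dirr.VC hq)) (by
      simp only [rd_lin]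
      linarith [h.fB.self β hβ, aB β hβ, pB β hβ, qB β hβ, rd_comm a β, rd_comm p β, rd_comm q β])
  have hz : ∀ β ∈ TT C, β + a + p + q ∈ Dirr ⊤ := fun β hβ =>
    D_of_rd (add_mem (add_mem (add_mem (TT_VC hβ) (Dirr.VC ha)) (Dirr.VC hp)) (Dirr.VC hq)) (by
      simp only [rd_lin]
      linarith [h.fC.self β hβ, aC β hβ, pC β hβ, qC β hβ, rd_comm a β, rd_comm p β, rd_comm q β])
  have O1 : OR (Finset.univ : Finset (Fin 4)) ![1, a, p, q] := ⟨fun i _ => by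
    fin_cases i <;> simp [one_Dirr, ha, hp, hq], fun i _ j _ e => by
    fin_cases i <;> fin_cases j <;> simp at e ⊢ <;> linarith⟩
  have OA : OR (TT A) (· - a) := ⟨hb, fun σ hσ τ hτ e => by
    simp only [rd_lin]; linarith [h.fA.ne σ hσ τ hτ e, aA σ hσ, aA τ hτ, rd_comm a σ]⟩
  have OB : OR (TT B) (· + a - p - q) := ⟨hy, fun β hβ γ hγ e => by
    simp only [rd_lin]
    linarith [h.fB.ne β hβ γ hγ e, aB β hβ, pB β hβ, qB β hβ, rd_comm a β, rd_comm p β, rd_comm q β,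
      aB γ hγ, pB γ hγ, qB γ hγ]⟩
  have OC : OR (TT C) (· + a + p + q) := ⟨hz, fun β hβ γ hγ e => by
    simp only [rd_lin]
    linarith [h.fC.ne β hβ γ hγ e, aC β hβ, pC β hβ, qC β hβ, rd_comm a β, rd_comm p β, rd_comm q β,
      aC γ hγ, pC γ hγ, qC γ hγ]⟩
  have OBC := OB.sum OC fun β hβ γ hγ => by
    simp only [rd_lin]
    linarith [h.xBC β hβ γ hγ, aB β hβ, pB β hβ, qB β hβ, rd_comm a β, rd_comm p β, rd_comm q β,
      aC γ hγ, pC γ hγ, qC γ hγ]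
  have O := O1.sum (OA.sum OBC fun τ hτ => fa_sum.2 ⟨fun β hβ => by
      simp only [Sum.elim_inl, rd_lin]
      linarith [h.xAB τ hτ β hβ, aA τ hτ, pA τ hτ, qA τ hτ, rd_comm a τ, rd_comm p τ, rd_comm q τ,
        aB β hβ], fun β hβ => by
      simp only [Sum.elim_inr, rd_lin]
      linarith [h.xAC τ hτ β hβ, aA τ hτ, pA τ hτ, qA τ hτ, rd_comm a τ, rd_comm p τ, rd_comm q τ,
        aC β hβ]⟩) fun i _ => fa_sum.2 ⟨fun τ hτ => by
      have := rd_one_TT hτ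
      fin_cases i <;> simp [rd_lin] <;> linarith [aA τ hτ, pA τ hτ, qA τ hτ], fa_sum.2 ⟨fun τ hτ => by
      have := rd_one_TT hτ
      fin_cases i <;> simp [rd_lin] <;> linarith [aB τ hτ, pB τ hτ, qB τ hτ], fun τ hτ => by
      have := rd_one_TT hτ
      fin_cases i <;> simp [rd_lin] <;> linarith [aC τ hτ, pC τ hτ, qC τ hτ]⟩⟩
  obtain ⟨cAB, cAC, cBC⟩ := h.cop
  obtain ⟨P, hP⟩ := VC.one_int (Dirr.VC hp)
  obtain ⟨Q, hQ⟩ := VC.one_int (Dirr.VC hq)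
  have b1 : ∀ τ ∈ TT A, (τ - a) 1 = (-(v 1 + 1) : ℤ) := fun τ hτ => by
    simp [h.sA.TT_one hτ, k.hv]; ring
  have y1 : ∀ β ∈ TT B, (β + a - p - q) 1 = (v 1 - 1 - P - Q : ℤ) := fun β hβ => by
    simp [h.sB.TT_one hβ, k.hv, hP, hQ]; ring
  have z1 : ∀ β ∈ TT C, (β + a + p + q) 1 = (v 1 - 1 + P + Q : ℤ) := fun β hβ => by
    simp [h.sC.TT_one hβ, k.hv, hP, hQ]; ring
  have bo : rd (τ₀ - a) 1 = 0 := by simp only [rd_lin]; linarith [rd_one_TT hτ, rd_comm 1 τ₀]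
  have yo : rd (β₀ + a - p - q) 1 = 0 := by simp only [rd_lin]; linarith [rd_one_TT hβ, rd_comm 1 β₀]
  have zo : rd (γ₀ + a + p + q) 1 = 0 := by simp only [rd_lin]; linarith [rd_one_TT hγ, rd_comm 1 γ₀]
  obtain ⟨κ, hκ⟩ := (cBC.mul_dvd (h.dB (Dirr.VC (hb _ hτ)) bo (b1 _ hτ) 0 (by simpa using bB _ hτ))
    (h.swap.dB (Dirr.VC (hb _ hτ)) bo (b1 _ hτ) 0 (by simpa using bC _ hτ)))
  obtain ⟨y, hy'⟩ := cAC.mul_dvd (h.dA (Dirr.VC (hy _ hβ)) yo (y1 _ hβ) 0 fun τ hτ => by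
      simp only [rd_lin, Int.cast_zero]
      linarith [h.xAB τ hτ _ hβ, aA τ hτ, pA τ hτ, qA τ hτ, rd_comm β₀ τ])
    (h.swap.dB (Dirr.VC (hy _ hβ)) yo (y1 _ hβ) 0 fun τ hτ => by
      simp only [rd_lin, Int.cast_zero]
      linarith [h.xBC _ hβ τ hτ, aC τ hτ, pC τ hτ, qC τ hτ])
  obtain ⟨z, hz'⟩ := cAB.mul_dvd (h.dA (Dirr.VC (hz _ hγ)) zo (z1 _ hγ) 0 fun τ hτ => by
      simp only [rd_lin, Int.cast_zero]
      linarith [h.xAC τ hτ _ hγ, aA τ hτ, pA τ hτ, qA τ hτ, rd_comm γ₀ τ])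
    (h.dB (Dirr.VC (hz _ hγ)) zo (z1 _ hγ) 0 fun τ hτ => by
      simp only [rd_lin, Int.cast_zero]
      linarith [h.xBC τ hτ _ hγ, aB τ hτ, pB τ hτ, qB τ hτ, rd_comm γ₀ τ])
  have P1 := h.dA (Dirr.VC hp) po hP 0 (by simpa using pA)
  have P2 := h.dB (Dirr.VC hp) po hP 1 (by simpa using pB)
  have P3 := h.swap.dB (Dirr.VC hp) po hP (-1) (by simpa using pC)
  have Q1 := h.dA (Dirr.VC hq) qo hQ 0 (by simpa using qA)
  have Q2 := h.dB (Dirr.VC hq) qo hQ 1 (by simpa using qB)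
  have Q3 := h.swap.dB (Dirr.VC hq) qo hQ (-1) (by simpa using qC)
  obtain ⟨ω, hω, hω'⟩ := sum_sq O.orthon O.1
    (N := (2 * s + 1) * (4 * r₂ + 1) * (4 * r₃ + 1)) (by positivity) fun χ hχ e => by
    have hχ' := Irr.VC hχ
    replace e := fun i hi => rd_of_dot (r := 0) (by simpa using e i hi)
    simp only [fa_sum, Sum.elim_inl, Sum.elim_inr, rd_lin] at e
    obtain ⟨e0, e1, e2, e3⟩ := e
    have f0 := e0 0 (by simp)
    have f1 := e0 1 (by simp)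
    have f2 := e0 2 (by simp)
    have f3 := e0 3 (by simp)
    simp only [Matrix.cons_val_zero, Matrix.cons_val_one, Matrix.cons_val] at f0 f1 f2 f3
    obtain ⟨d, hd⟩ := VC.one_int hχ'
    obtain ⟨c, hc⟩ := (cAC.mul_left cBC).mul_dvd (cAB.mul_dvd
      (h.dA hχ' f0 hd 0 fun τ hτ => by simp only [Int.cast_zero]; linarith [e1 τ hτ])
      (h.dB hχ' f0 hd 0 fun τ hτ => by simp only [Int.cast_zero]; linarith [e2 τ hτ]))
      (h.swap.dB hχ' f0 hd 0 fun τ hτ => by simp only [Int.cast_zero]; linarith [e3 τ hτ])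
    exact ⟨c, by rw [hd, ← hc, sub_zero]⟩
  obtain ⟨t1, t2, t3, t4⟩ := h.nmem Nat.prime_two k.ht.symm.dvd h.two_nd
  obtain ⟨Y, hY, -⟩ := D_inv (hy _ hβ) (y1 _ hβ) k.ht
  obtain ⟨Z, hZ, -⟩ := D_inv (hz _ hγ) (z1 _ hγ) k.ht
  refine ⟨p, q, -κ, y, z, P, Q, Y, Z, ω, fun g hg => ?_, fun g hg => ?_, by linarith, by linarith,
    by linarith, ?_, D_deg hp hP, by simpa using P1, P2, by simpa using P3, ?_, fun e χ hχ => ?_,
    fun e => Dirr.one_ne (hy _ hβ) (by rw [y1 _ hβ, ← sub_zero (_ - Q), hy', e]; simp),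
    fun e => Dirr.one_ne (hz _ hγ) (by rw [z1 _ hγ, ← sub_zero (_ + Q), hz', e]; simp), ?_,
    fun e => ?_, fun g g1 g2 e => ?_⟩
  · exact_mod_cast (k.hv g).symm.trans ((h.sB.val' (Dirr.VC ha) ao (-1) (by simpa using aB)).2 g hg)
  · exact_mod_cast (k.hv g).symm.trans ((h.sC.val' (Dirr.VC ha) ao (-1) (by simpa using aC)).2 g hg)
  · exact (cAC.mul_left cBC).mul_dvd (cAB.mul_dvd (by simpa using P1.sub Q1)
      (by simpa using P2.sub Q2)) (by simpa using P3.sub Q3)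
  · simp only [Finset.sum_disjSum, Sum.elim_inl, Sum.elim_inr, Fin.sum_univ_four,
      Matrix.cons_val_zero, Matrix.cons_val_one, Matrix.cons_val] at hω
    rw [Finset.sum_congr rfl fun τ hτ => by rw [b1 τ hτ],
      Finset.sum_congr (s₁ := TT B) rfl fun τ hτ => by rw [y1 τ hτ],
      Finset.sum_congr (s₁ := TT C) rfl fun τ hτ => by rw [z1 τ hτ], k.hv, hP, hQ] at hω
    simp only [Complex.norm_intCast, sq_abs, Finset.sum_const, h.tA, h.tB, h.tC, nsmul_eq_mul,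
      Pi.one_apply, norm_one] at hω
    have : ((Nat.card G : ℤ) : ℝ) = (1 + v 1 ^ 2 + P ^ 2 + Q ^ 2 + s * (v 1 + 1) ^ 2 +
      r₂ * (v 1 - 1 - P - Q) ^ 2 + r₃ * (v 1 - 1 + P + Q) ^ 2 +
      ((2 * s + 1) * (4 * r₂ + 1) * (4 * r₃ + 1)) ^ 2 * ω : ℤ) := by
      push_cast at hω ⊢; linarith
    exact_mod_cast this
  · have : ∀ i ∈ Finset.univ.disjSum ((TT A).disjSum ((TT B).disjSum (TT C))), ∃ a' b c : ℂ,
        ∀ g, g ≠ 1 → g ∉ conjSet A → g ∉ conjSet B → g ∉ conjSet C → v g = 0 →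
        Sum.elim ![1, a, p, q] (Sum.elim (· - a) (Sum.elim (· + a - p - q) (· + a + p + q))) i g =
          a' + b * p g + c * q g := fa_sum.2 ⟨fun i _ => by
        fin_cases i
        exacts [⟨1, 0, 0, by simp⟩, ⟨0, 0, 0, fun g _ _ _ _ e => by simp [k.hv, e]⟩, ⟨0, 1, 0, by simp⟩,
          ⟨0, 0, 1, by simp⟩], fa_sum.2 ⟨fun τ hτ => ⟨-1, 0, 0, fun g g1 g2 _ _ e => by
        simp [TT_of_nmem hτ g1 g2, k.hv, e]⟩, fa_sum.2 ⟨fun τ hτ => ⟨-1, -1, -1, fun g g1 _ g2 _ e => by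
        simp [TT_of_nmem hτ g1 g2, k.hv, e]; ring⟩, fun τ hτ => ⟨-1, 1, 1, fun g g1 _ _ g2 e => by
        simp [TT_of_nmem hτ g1 g2, k.hv, e]⟩⟩⟩⟩
    obtain ⟨i, hi, e1⟩ := hω' e χ hχ
    obtain ⟨a', b, c, e2⟩ := this i hi
    rcases e1 with rfl | rfl
    · exact ⟨a', b, c, e2⟩
    · exact ⟨-a', -b, -c, fun g g1 g2 g3 g4 g5 => by rw [Pi.neg_apply, e2 g g1 g2 g3 g4 g5]; ring⟩
  · have := col_bessel OBC.orthon OBC.1 t
    simp only [Finset.sum_disjSum, Sum.elim_inl, Sum.elim_inr] at this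
    rw [Finset.sum_congr (s₁ := TT B) rfl (g := fun _ => (Y : ℝ) ^ 2) fun τ hτ => by
        rw [← sq_abs (Y : ℝ), ← Complex.norm_intCast, ← hY]
        simp [TT_of_nmem hτ t1 t3, TT_of_nmem hβ t1 t3],
      Finset.sum_congr (s₁ := TT C) rfl (g := fun _ => (Z : ℝ) ^ 2) fun τ hτ => by
        rw [← sq_abs (Z : ℝ), ← Complex.norm_intCast, ← hZ]
        simp [TT_of_nmem hτ t1 t4, TT_of_nmem hγ t1 t4]] at this
    simp only [Finset.sum_const, h.tB, h.tC, nsmul_eq_mul] at this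
    exact_mod_cast this
  · obtain ⟨u₂, o₂, n₂⟩ := SS.exists_inv h.oB (h.wB ▸ by decide)
    obtain ⟨u₃, o₃, n₃⟩ := SS.exists_inv h.oC (h.wC ▸ by decide)
    have c0 := cI_Dirr k.ht k.cj one_Dirr
    have c1 := cI_Dirr k.ht k.cj ha
    have c2 := cI_Dirr k.ht k.cj (hy _ hβ)
    have c3 := cI_Dirr k.ht k.cj (hz _ hγ)
    have c4 : dot ⊤ a (cI G) = 0 := by
      rw [k.hv t, e] at c1
      exact (mul_eq_zero.1 (c1.trans (by simp))).resolve_right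
        (mul_ne_zero (cardC_ne _) (Dirr.one_ne ha))
    rw [y1 _ hβ, hY, dot_sub_left, dot_sub_left, dot_add_left, h.sB.TT_cI h.oB o₂ n₂ hβ, c4, h.nB] at c2
    rw [z1 _ hγ, hZ, dot_add_left, dot_add_left, dot_add_left, h.sC.TT_cI h.oC o₃ n₃ hγ, c4, h.nC] at c3
    simp only [Pi.one_apply] at c0
    have : (((4 * r₂ + 1 + (4 * r₃ + 1) : ℤ) * Nat.card (centralizer ({t} : Set G)) *
      ((v 1 - 1 - P - Q) * (v 1 - 1 + P + Q)) : ℤ) : ℂ) = ((centralizer ({t} : Set G)).index *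
      (2 * ((v 1 - 1 - P - Q) * (v 1 - 1 + P + Q)) + Y ^ 2 * (v 1 - 1 + P + Q) +
        Z ^ 2 * (v 1 - 1 - P - Q)) : ℤ) := by
      push_cast at c2 c3 ⊢
      linear_combination (v 1 - 1 + P + Q : ℂ) * c2 + (v 1 - 1 - P - Q : ℂ) * c3 +
        2 * ((v 1 - 1 - P - Q : ℂ) * (v 1 - 1 + P + Q)) * c0
    exact_mod_cast this
  · have := D_central (hb _ hτ) (b1 _ hτ) (g := g) (v := -1) (by
      simp [TT_of_nmem hτ g1 g2, k.hv, e])
    rwa [neg_dvd, mul_neg_one, dvd_neg] at this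

end SY

end Cfsg.Agent.SSC
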