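/-
Self-centralization systems of type (2,4,4): the order is prime to three.
-/
import Cfsg.Agent.SSC.H

set_option autoImplicit false
set_option linter.unusedSectionVars false
set_option linter.style.haveILetI false

namespace Cfsg.Agent.SSC

open Cfsg.Agent.H4 Subgroup Cfsg.Agent.H11 Cfsg.Agent.H15 Cfsg.Agent.H22 Classical

theorem arPQ {n1 r2 r3 x k δ y z E o : ℤ} (hδ : δ ^ 2 = 1) (h0 : 0 < n1 * ((4 * r2 + 1) * (4 * r3 + 1)))
    (hx : x + δ = k * ((4 * r2 + 1) * (4 * r3 + 1)))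
    (hl : n1 * (4 * r3 + 1) * y + n1 * (4 * r2 + 1) * z = 2 * (δ * x) - 2)
    (hq : 4 * (x * k) = 2 * k ^ 2 * ((4 * r2 + 1) * (4 * r3 + 1)) + n1 * (4 * r3 + 1) * y ^ 2 +
      n1 * (4 * r2 + 1) * z ^ 2 + E * (n1 * ((4 * r2 + 1) * (4 * r3 + 1))))
    (ho : 4 * (n1 * ((4 * r2 + 1) * (4 * r3 + 1))) * o = 4 * δ +
      k * (n1 * (4 * r2 + 1 + (4 * r3 + 1)) - 2 * ((4 * r2 + 1) * (4 * r3 + 1)))) :
    ∃ p q, k * (p + q) = (4 * r2 + 1) * p ^ 2 + (4 * r3 + 1) * q ^ 2 + E ∧ p + q = 4 * o ∧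
      δ * y = k - (4 * r2 + 1) * p ∧ δ * z = k - (4 * r3 + 1) * q := by
  obtain rfl : x = k * ((4 * r2 + 1) * (4 * r3 + 1)) - δ := by linarith
  have h1 : ∀ r : ℤ, IsCoprime (4 * r + 1) 4 := fun r => ⟨1, -r, by ring⟩
  obtain ⟨p, hp⟩ : 4 * r2 + 1 ∣ k - δ * y := (h1 r2).dvd_of_dvd_mul_left
    ⟨δ * (2 * k ^ 2 * (4 * r3 + 1) - 2 * δ * k * (4 * r3 + 1) * y + n1 * y * z - n1 * z ^ 2 -
      E * n1 * (4 * r3 + 1)), by
      linear_combination -δ * hq - δ * y * hl + (-4 * k + 2 * δ * y) * hδ⟩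
  obtain ⟨q, hq'⟩ : 4 * r3 + 1 ∣ k - δ * z := (h1 r3).dvd_of_dvd_mul_left
    ⟨δ * (2 * k ^ 2 * (4 * r2 + 1) - 2 * δ * k * (4 * r2 + 1) * z + n1 * y * z - n1 * y ^ 2 -
      E * n1 * (4 * r2 + 1)), by
      linear_combination -δ * hq - δ * z * hl + (-4 * k + 2 * δ * z) * hδ⟩
  obtain rfl : y = δ * (k - (4 * r2 + 1) * p) := by linear_combination -δ * hp - y * hδ
  obtain rfl : z = δ * (k - (4 * r3 + 1) * q) := by linear_combination -δ * hq' - z * hδ
  have h2 : p + q = 4 * o := mul_left_cancel₀ h0.ne' (by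
    rcases sq_eq_one_iff.1 hδ with rfl | rfl
    · linear_combination -ho - hl
    · linear_combination -ho + hl)
  refine ⟨p, q, mul_left_cancel₀ h0.ne' ?_, h2, by linear_combination (k - (4 * r2 + 1) * p) * hδ,
    by linear_combination (k - (4 * r3 + 1) * q) * hδ⟩
  rcases sq_eq_one_iff.1 hδ with rfl | rfl
  · linear_combination hq + k * hl
  · linear_combination hq - k * hl

theorem arI {n1 r2 r3 x k y z Y Z : ℤ} (h1 : 0 < n1) (h2 : 2 ≤ r2) (h3 : 2 ≤ r3) (k0 : 0 < k)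
    (y0 : y ≠ 0) (z0 : z ≠ 0) (hb : r2 * Y ^ 2 + r3 * Z ^ 2 ≤ x)
    (hi : (4 * r2 + 1 + (4 * r3 + 1)) * x * (n1 * (4 * r3 + 1) * y * (n1 * (4 * r2 + 1) * z)) =
      n1 * ((4 * r2 + 1) * (4 * r3 + 1)) * k * (2 * (n1 * (4 * r3 + 1) * y * (n1 * (4 * r2 + 1) * z)) +
        Y ^ 2 * (n1 * (4 * r2 + 1) * z) + Z ^ 2 * (n1 * (4 * r3 + 1) * y))) :
    4 * (n1 * ((4 * r2 + 1) * (4 * r3 + 1))) * k ≤ (2 * (4 * r2 + 1 + (4 * r3 + 1)) + 9 * k) * x := by
  have a1 : (4 * r2 + 1 + (4 * r3 + 1)) * x * (y * z) = k * (2 * (n1 * ((4 * r2 + 1) * (4 * r3 + 1))) *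
      (y * z) + (4 * r2 + 1) * Y ^ 2 * z + (4 * r3 + 1) * Z ^ 2 * y) :=
    mul_left_cancel₀ (a := n1 ^ 2 * ((4 * r2 + 1) * (4 * r3 + 1))) (by positivity)
      (by linear_combination hi)
  have a2 : ∀ w : ℤ, 0 ≤ w ^ 2 + w := fun w => by
    rcases (show w ≤ -1 ∨ 0 ≤ w by omega) with e | e <;> nlinarith
  have a3 : 2 * (n1 * ((4 * r2 + 1) * (4 * r3 + 1))) * k ≤ (4 * r2 + 1 + (4 * r3 + 1)) * x +
      k * ((4 * r2 + 1) * Y ^ 2 + (4 * r3 + 1) * Z ^ 2) := by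
    refine le_of_mul_le_mul_left (a := (y * z) ^ 2) ?_ (by positivity)
    have b1 : 0 ≤ k * ((4 * r2 + 1) * Y ^ 2 * z ^ 2) * (y ^ 2 + y) := mul_nonneg (by positivity) (a2 y)
    have b2 : 0 ≤ k * ((4 * r3 + 1) * Z ^ 2 * y ^ 2) * (z ^ 2 + z) := mul_nonneg (by positivity) (a2 z)
    have b3 := congrArg (· * (y * z)) a1
    linarith
  have a4 : 2 * ((4 * r2 + 1) * Y ^ 2 + (4 * r3 + 1) * Z ^ 2) ≤ 9 * x := by
    nlinarith [mul_nonneg (sub_nonneg.2 h2) (sq_nonneg Y), mul_nonneg (sub_nonneg.2 h3) (sq_nonneg Z)]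
  have a5 := mul_le_mul_of_nonneg_left a4 k0.le
  linarith

variable {G : Type*} [Group G] [Fintype G]

/-- the situation after the first reductions -/
structure S3 (A B C : Subgroup G) (N x k o : ℕ) (t : G) (O : Finset G) : Prop where
  ht : orderOf t = 2
  cj : ∀ x y : G, orderOf x = 2 → orderOf y = 2 → IsConj x y
  card : Nat.card G = N * x * k
  cent : Nat.card (centralizer ({t} : Set G)) = x
  ck : k.Coprime (N * x)
  odd : Odd k
  cO : O.card = N * x * o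
  inv : ∀ g ∈ O, ∀ c, c * g * c⁻¹ ∈ O
  ne : ∀ g ∈ O, g ≠ 1
  dvd : ∀ g ∈ O, N * x ∣ (centralizer ({g} : Set G)).index
  mem : ∀ (g : G) (r : ℕ), r.Prime → r ∣ k → r ∣ orderOf g → g ∈ O

theorem S3.false {A B C : Subgroup G} {N x k o n : ℕ} {t : G} {O : Finset G}
    (h : S3 A B C N x k o t O) (ho : o ≤ 2) (h1 : 1 ≤ o) (hk : k = 4 * o * n + 1) (hn : 1 < n)
    (hc : n.Coprime x) (hab : ∀ r : ℕ, r.Prime → r ∣ k → ∀ P : Sylow r G, IsMulCommutative (P : Subgroup G)) :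
    False := by
  have n0 : 0 < N * x :=
    Nat.pos_of_ne_zero fun e => (Nat.card_pos (α := G)).ne' (by rw [h.card, e, zero_mul])
  have a0 : ∀ g ∈ O, Finset.univ.filter (IsConj g) ⊆ O := fun g hg y hy => by
    obtain ⟨c, rfl⟩ := isConj_iff.1 (Finset.mem_filter.1 hy).2
    exact h.inv g hg c
  have a1 : ∀ g ∈ O, (centralizer ({g} : Set G)).index = N * x ∧
      Nat.card (centralizer ({g} : Set G)) = k := fun g hg => by
    obtain ⟨d, hd⟩ := h.dvd g hg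
    have b1 := Finset.card_le_card (a0 g hg)
    have b2 := card_mul_index (centralizer ({g} : Set G))
    rw [card_cls, h.cO, hd] at b1
    rw [hd, h.card] at b2
    have b3 : Nat.card (centralizer ({g} : Set G)) * d = k :=
      Nat.eq_of_mul_eq_mul_left n0 (by linarith)
    have b4 := Nat.le_of_mul_le_mul_left b1 n0
    have b5 : Odd d := (Nat.odd_mul.1 (b3 ▸ h.odd)).2
    obtain rfl : d = 1 := by obtain ⟨e, rfl⟩ := b5; omega
    exact ⟨by rw [hd, mul_one], by rw [← b3, mul_one]⟩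
  have k1 : k ≠ 1 := by nlinarith
  obtain ⟨r, hr, hrk⟩ := Nat.exists_prime_and_dvd k1
  haveI := Fact.mk hr
  obtain ⟨g, hg⟩ := exists_prime_orderOf_dvd_card' (G := G) r (h.card ▸ hrk.mul_left _)
  have gO := h.mem g r hr hrk hg.symm.dvd
  have a2 : ∀ r' : ℕ, r'.Prime → r' ∣ k → r' = r := fun r' hr' hk' => by
    by_contra e
    haveI := Fact.mk hr'
    obtain ⟨y, hy⟩ := exists_prime_orderOf_dvd_card' (G := centralizer ({g} : Set G)) r'
      ((a1 g gO).2 ▸ hk')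
    rw [← orderOf_coe] at hy
    have b1 : orderOf ((y : G) * g) = r' * r := by
      rw [Commute.orderOf_mul_eq_mul_orderOf_of_coprime (mem_cent1.1 y.2)
        (by rw [hy, hg]; exact (Nat.coprime_primes hr' hr).2 e), hy, hg]
    have yO := h.mem y r' hr' hk' hy.symm.dvd
    have zO := h.mem (y * g) r hr hrk (b1 ▸ dvd_mul_left _ _)
    have b2 : ∀ u w : G, orderOf u ≠ orderOf w →
        Disjoint (Finset.univ.filter (IsConj u)) (Finset.univ.filter (IsConj w)) := fun u w e =>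
      Finset.disjoint_filter.2 fun z _ e1 e2 =>
        e ((orderOf_eq_of_isConj e1).trans (orderOf_eq_of_isConj e2).symm)
    have b3 := Finset.card_le_card (Finset.union_subset (Finset.union_subset (a0 g gO) (a0 _ yO)) (a0 _ zO))
    have := hr.two_le
    have := hr'.two_le
    rw [Finset.card_union_of_disjoint (Finset.disjoint_union_left.2 ⟨b2 _ _ (by rw [hg, b1]; nlinarith),
      b2 _ _ (by rw [hy, b1]; nlinarith)⟩), Finset.card_union_of_disjoint (b2 _ _ (by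
        rw [hg, hy]; exact Ne.symm e)), card_cls, card_cls, card_cls, (a1 _ gO).1, (a1 _ yO).1,
      (a1 _ zO).1, h.cO] at b3
    nlinarith
  have a3 := Nat.eq_prime_pow_of_unique_prime_dvd (by omega : k ≠ 0) fun hd hdk => a2 _ hd hdk
  obtain ⟨R, hR⟩ := exists_sylow_mem (p := r) (k := 1) (x := g) (by rw [hg, pow_one])
  have a4 : ∀ y ∈ (R : Subgroup G), y ≠ 1 → y ∈ O := fun y hy e => by
    obtain ⟨i, hi⟩ := R.isPGroup'.exists_orderOf_dvd_pow ⟨y, hy⟩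
    rw [← orderOf_coe] at hi
    obtain ⟨i, -, hi⟩ := (Nat.dvd_prime_pow hr).1 hi
    refine h.mem y r hr hrk (hi ▸ dvd_pow_self r fun e' => e ?_)
    rwa [e', pow_zero, orderOf_eq_one_iff] at hi
  have hS : SS (R : Subgroup G) := fun y hy e => by
    haveI := hab r hr hrk R
    exact R.is_maximal' (IsPGroup.of_card ((a1 y (a4 y hy e)).2.trans a3)) fun z hz =>
      mem_cent1.2 (congrArg Subtype.val (mul_comm' (⟨z, hz⟩ : (R : Subgroup G)) ⟨y, hy⟩))
  have cR : Nat.card (R : Subgroup G) = k := by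
    rw [← hS g hR (h.ne g gO)]; exact (a1 g gO).2
  have a5 : Nat.card (conjSet (R : Subgroup G)) = O.card := by
    rw [← card_filter_conjSet]
    congr 1
    ext y
    rw [Finset.mem_filter, and_iff_right (Finset.mem_univ _)]
    refine ⟨fun ⟨e, c, hc⟩ => by simpa [mul_assoc] using h.inv _ (a4 _ hc (conj_ne_one e)) c⁻¹,
      fun e => ?_⟩
    have b1 := orderOf_dvd_natCard (centralizer ({y} : Set G)) (mem_cent1.2 rfl)
    rw [(a1 y e).2, a3] at b1
    obtain ⟨i, -, hi⟩ := (Nat.dvd_prime_pow hr).1 b1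
    exact ⟨h.ne y e, exists_conj_mem_sylow R hi⟩
  have a6 := hS.card_conjSet
  rw [a5, h.cO, cR, h.card, show k - 1 = 4 * o * n by omega] at a6
  have a7 : aw (R : Subgroup G) = 4 * n :=
    Nat.eq_of_mul_eq_mul_left (Nat.mul_pos (Nat.mul_pos n0 h1) (show 0 < k by omega)) (by linarith)
  have oR : Odd (Nat.card (R : Subgroup G)) := cR ▸ h.odd
  obtain ⟨u, hu, hN⟩ := SS.exists_inv oR (a7 ▸ (by decide : Even 4).mul_right n)
  have a8 := hS.aw_dvd_cent oR (fun e => h.ne g gO (mem_bot.1 (e ▸ hR))) hu hN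
  rw [a7, ← card_centralizer_of_isConj (h.cj t u h.ht hu), h.cent] at a8
  exact hn.ne' (Nat.eq_one_of_dvd_coprimes hc dvd_rfl ((dvd_mul_left n 4).trans a8))

end Cfsg.Agent.SSC
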