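/-
Self-centralization systems of type (2,4,4): the order is prime to three.
-/
import Cfsg.Agent.SSC.I

set_option autoImplicit false
set_option linter.unusedSectionVars false
set_option linter.style.haveILetI false

namespace Cfsg.Agent.SSC

open Cfsg.Agent.H4 Subgroup Cfsg.Agent.H11 Cfsg.Agent.H15 Cfsg.Agent.H22 Classical

variable {G : Type*} [Group G] [Fintype G]

namespace SY

variable {A B C : Subgroup G} {s r₂ r₃ m : ℕ} (h : SY A B C s r₂ r₃ m)
  {t : G} {a : G → ℂ} {v : G → ℤ} {j : ℤ} (k : S1 A t a v j)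
  {p q : G → ℂ} {κ y z P Q Y Z : ℤ} {ω : ℕ} (l : S2 A B C s r₂ r₃ m t v p q κ y z P Q Y Z ω)
include h

theorem cardZ : (Nat.card G : ℤ) = (2 * s + 1) * ((4 * r₂ + 1) * (4 * r₃ + 1)) * m := by
  rw [h.card, h.nA, h.nB, h.nC]; push_cast; ring

theorem leZ : (m : ℤ) ≤ 3 * ((2 * s + 1) * ((4 * r₂ + 1) * (4 * r₃ + 1))) := by
  have := h.le
  rw [h.nA, h.nB, h.nC, mul_assoc] at this
  exact_mod_cast this

theorem l117 : (117 : ℤ) ≤ (4 * r₂ + 1) * (4 * r₃ + 1) := by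
  have h1 := h.lB
  have h2 := h.lC
  have h3 := h.five
  zify at h1 h2 h3
  nlinarith [mul_nonneg (sub_nonneg.2 h1) (sub_nonneg.2 h2)]

include k l

theorem m_eq : (m : ℤ) = v 1 * κ * j ^ 2 := by
  have h1 := k.card
  rw [h.cardZ, l.hκ, h.nA] at h1
  refine mul_left_cancel₀ (a := (2 * (s : ℤ) + 1) * ((4 * r₂ + 1) * (4 * r₃ + 1))) (by positivity) ?_
  push_cast at h1
  linear_combination h1

theorem quad : ∃ e : ℤ, P - Q = (2 * s + 1) * (4 * r₂ + 1) * (4 * r₃ + 1) * e ∧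
    4 * (m : ℤ) = 2 * κ ^ 2 * ((4 * r₂ + 1) * (4 * r₃ + 1)) + (2 * s + 1) * (4 * r₃ + 1) * y ^ 2 +
      (2 * s + 1) * (4 * r₂ + 1) * z ^ 2 +
        (2 * e ^ 2 + 4 * ω) * ((2 * s + 1) * ((4 * r₂ + 1) * (4 * r₃ + 1))) := by
  obtain ⟨e, he⟩ := l.he
  refine ⟨e, he, mul_left_cancel₀ (a := (2 * (s : ℤ) + 1) * ((4 * r₂ + 1) * (4 * r₃ + 1))) (by positivity) ?_⟩
  have h1 := l.sq
  have h2 : 4 * (Nat.card G : ℤ) = 2 * (2 * s + 1) * (v 1 + 1) ^ 2 + (4 * r₂ + 1) * (v 1 - 1 - P - Q) ^ 2 +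
      (4 * r₃ + 1) * (v 1 - 1 + P + Q) ^ 2 + 2 * (P - Q) ^ 2 +
      4 * ((2 * s + 1) * (4 * r₂ + 1) * (4 * r₃ + 1)) ^ 2 * ω := by linear_combination 4 * h1
  rw [← l.hy, ← l.hz, he, l.hκ, h.cardZ] at h2
  linear_combination h2

omit l in
theorem v_conj (g c : G) : v (c * g * c⁻¹) = v g := by
  have := Dirr.inv k.ha c trivial g
  rw [k.hv, k.hv] at this
  exact_mod_cast this

theorem j_eq : j ^ 2 = 1 ∧ v t = 0 := by
  obtain ⟨e, -, he⟩ := h.quad k l
  obtain ⟨w, hw⟩ := k.deg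
  obtain ⟨t1, t2, t3, t4⟩ := h.nmem Nat.prime_two k.ht.symm.dvd h.two_nd
  have h1 := h.m_eq k l
  have h2 := Nat.isCoprime_iff_coprime.2 ((h.sB.coprime_cent t1 t3).mul_right (h.sC.coprime_cent t1 t4))
  rw [h.nA] at hw
  rw [h.nB, h.nC] at h2
  refine arJ (s := s) (W := (4 * r₃ + 1) * y ^ 2 + (4 * r₂ + 1) * z ^ 2 +
    (2 * e ^ 2 + 4 * ω) * ((4 * r₂ + 1) * (4 * r₃ + 1))) (i := (centralizer ({t} : Set G)).index)
    (by exact_mod_cast h.lA) h.l117 l.hκ (by exact_mod_cast hw) (h1 ▸ h.leZ) (by rw [← h1, he]; ring)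
    k.cent (by exact_mod_cast Nat.card_pos) (h1 ▸ h.c_dvd k) (by exact_mod_cast h2) k.par
    (by rw [← h1, ← h.cardZ]; exact_mod_cast card_mul_index _)
    (by exact_mod_cast odd_index k.ht k.cj) (fun e => by have := k.pos; rw [e] at this; simp at this) ?_
  rw [← k.sum, ← card_cls, ← nsmul_eq_mul, ← Finset.sum_const,
    Finset.sum_congr rfl (g := fun g => v g * (v g + 1)) fun g hg => by
      obtain ⟨c, rfl⟩ := isConj_iff.1 (Finset.mem_filter.1 hg).2
      rw [h.v_conj k]]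
  refine Finset.sum_le_sum_of_subset_of_nonneg (fun g hg => ?_) fun g _ _ => ?_
  · have := (orderOf_eq_of_isConj (Finset.mem_filter.1 hg).2).symm.trans k.ht
    obtain ⟨t1, t2, -⟩ := h.nmem Nat.prime_two this.symm.dvd h.two_nd
    exact Finset.mem_filter.2 ⟨Finset.mem_univ _, t1, t2⟩
  · rcases (show v g ≤ -1 ∨ 0 ≤ v g by omega) with e | e <;> nlinarith

theorem v_cases {g : G} (h1 : g ≠ 1) (h2 : g ∉ conjSet A) : v g = 0 ∨ v g = -1 := by
  have h3 := k.sum
  rw [(h.j_eq k l).1, sub_self, mul_zero, Finset.sum_eq_zero_iff_of_nonneg fun g _ => by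
    rcases (show v g ≤ -1 ∨ 0 ≤ v g by omega) with e | e <;> nlinarith] at h3
  exact (mul_eq_zero.1 (h3 g (Finset.mem_filter.2 ⟨Finset.mem_univ _, h1, h2⟩))).imp_right
    eq_neg_of_add_eq_zero_left

theorem main (hab : ∀ r : ℕ, r.Prime → r ≠ 2 → ¬ r ∣ Nat.card A * Nat.card B * Nat.card C →
    ∀ P : Sylow r G, IsMulCommutative (P : Subgroup G)) : ¬ 3 ∣ Nat.card G := by
  obtain ⟨j1, t0⟩ := h.j_eq k l
  obtain ⟨e, he, hq⟩ := h.quad k l
  set x := Nat.card (centralizer ({t} : Set G)) with hx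
  set N := Nat.card A * Nat.card B * Nat.card C with hN
  have NZ : (N : ℤ) = (2 * s + 1) * ((4 * r₂ + 1) * (4 * r₃ + 1)) := by
    rw [hN, h.nA, h.nB, h.nC]; push_cast; ring
  have x0 : 0 < x := Nat.card_pos
  have a1 : v 1 = j * x := by have := k.cent; rw [t0, ← hx] at this; linear_combination -j * this - v 1 * j1
  obtain ⟨c, hc⟩ : x ∣ m := by exact_mod_cast h.c_dvd k
  have a2 : κ = j * c := by
    have := h.m_eq k l
    rw [hc, a1, j1] at this
    refine mul_left_cancel₀ (a := (x : ℤ)) (by positivity) ?_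
    push_cast at this
    linear_combination -j * this - x * κ * j1
  have a3 : (x : ℤ) + j = c * ((4 * r₂ + 1) * (4 * r₃ + 1)) := by
    have := l.hκ
    rw [a1, a2] at this
    linear_combination j * this + (c * ((4 * r₂ + 1) * (4 * r₃ + 1)) - x) * j1
  have jj := sq_eq_one_iff.1 j1
  have cG : Nat.card G = N * x * c := h.card.trans (by rw [hc]; ring)
  have N0 : 0 < N := Nat.mul_pos (Nat.mul_pos Nat.card_pos Nat.card_pos) Nat.card_pos
  have c0 : 0 < c := Nat.pos_of_ne_zero fun e => (Nat.card_pos (α := G)).ne' (by rw [cG, e, mul_zero])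
  have cxc : c.Coprime x := Nat.isCoprime_iff_coprime.1
    ⟨j * ((4 * r₂ + 1) * (4 * r₃ + 1)), -j, by linear_combination -j * a3 + j1⟩
  have cm := h.cm
  rw [hc] at cm
  have cxN : x.Coprime N := cm.coprime_mul_right
  have ccN : c.Coprime N := cm.coprime_mul_left
  obtain ⟨u, o₂, n₂⟩ := SS.exists_inv h.oB (h.wB ▸ by decide)
  have B0 : B ≠ ⊥ := fun e => by have := h.nB; have := h.lB; rw [e, card_bot] at *; omega
  have x4 : 4 ∣ x := by
    have := h.sB.aw_dvd_cent h.oB B0 o₂ n₂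
    rwa [h.wB, ← card_centralizer_of_isConj (k.cj t u k.ht o₂)] at this
  have oc : Odd c := (cxc.coprime_dvd_right ((by norm_num : 2 ∣ 4).trans x4)).odd_of_right
  have dN : ∀ g, g ≠ 1 → g ∉ conjSet A → g ∉ conjSet B → g ∉ conjSet C →
      N ∣ (centralizer ({g} : Set G)).index := fun g g1 g2 g3 g4 =>
    (h.cm.coprime_dvd_left (h.cent_dvd g1 g2 g3 g4)).symm.dvd_of_dvd_mul_left
      (by rw [card_mul_index, h.card]; exact dvd_mul_right _ _)
  set O := Finset.univ.filter fun g => g ≠ 1 ∧ g ∉ conjSet A ∧ g ∉ conjSet B ∧ g ∉ conjSet C ∧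
    v g = -1 with hO
  have mO : ∀ g, g ∈ O ↔ g ≠ 1 ∧ g ∉ conjSet A ∧ g ∉ conjSet B ∧ g ∉ conjSet C ∧ v g = -1 :=
    fun g => by rw [hO, Finset.mem_filter, and_iff_right (Finset.mem_univ _)]
  have iO : ∀ g ∈ O, ∀ c, c * g * c⁻¹ ∈ O := fun g hg c => by
    obtain ⟨g1, g2, g3, g4, g5⟩ := (mO g).1 hg
    have : ∀ D : Subgroup G, c * g * c⁻¹ ∈ conjSet D → g ∈ conjSet D := fun D e => by
      simpa [mul_assoc] using conj_mem_conjSet e c⁻¹
    exact (mO _).2 ⟨conj_ne_one g1, fun e => g2 (this _ e), fun e => g3 (this _ e),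
      fun e => g4 (this _ e), (h.v_conj k g c).trans g5⟩
  have dO : ∀ g ∈ O, N * x ∣ (centralizer ({g} : Set G)).index := fun g hg => by
    obtain ⟨g1, g2, g3, g4, g5⟩ := (mO g).1 hg
    refine cxN.symm.mul_dvd_of_dvd_of_dvd (dN g g1 g2 g3 g4) ?_
    have := D_central k.ha (k.hv 1) (k.hv g)
    rw [g5, mul_neg_one, dvd_neg, a1] at this
    exact_mod_cast (dvd_mul_left _ _).trans this
  have memO : ∀ (g : G) (r : ℕ), r.Prime → r ∣ c → r ∣ orderOf g → g ∈ O := fun g r hr h1 h2 => by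
    obtain ⟨g1, g2, g3, g4⟩ := h.nmem hr h2 fun e => hr.one_lt.ne' (Nat.eq_one_of_dvd_coprimes ccN h1 e)
    refine (mO g).2 ⟨g1, g2, g3, g4, (h.v_cases k l g1 g2).resolve_left fun e => ?_⟩
    have b1 := l.dk g g1 g2 e
    rw [l.hκ, a2] at b1
    have b2 : c ∣ (centralizer ({g} : Set G)).index := by
      exact_mod_cast ((dvd_mul_left _ _).mul_right _).trans b1
    obtain ⟨d, hd⟩ := ccN.symm.mul_dvd_of_dvd_of_dvd (dN g g1 g2 g3 g4) b2
    have b3 := card_mul_index (centralizer ({g} : Set G))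
    rw [hd, cG] at b3
    have b4 : Nat.card (centralizer ({g} : Set G)) * d = x :=
      Nat.eq_of_mul_eq_mul_left (Nat.mul_pos N0 c0) (by linarith)
    exact hr.one_lt.ne' (Nat.eq_one_of_dvd_coprimes cxc h1 ((h2.trans (orderOf_dvd_natCard _
      (mem_cent1.2 rfl))).trans (Dvd.intro _ b4)))
  obtain ⟨o, ho⟩ := dvd_card_of_inv O iO dO
  have S : S3 A B C N x c o t O := ⟨k.ht, k.cj, cG, rfl, ccN.mul_right cxc, oc, ho, iO,
    fun g hg => ((mO g).1 hg).1, dO, memO⟩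
  have eo : 4 * ((2 * s + 1) * ((4 * r₂ + 1) * (4 * r₃ + 1)) : ℤ) * o = 4 * j +
      c * ((2 * s + 1) * (4 * r₂ + 1 + (4 * r₃ + 1)) - 2 * ((4 * r₂ + 1) * (4 * r₃ + 1))) := by
    have b1 : ∀ g, v g = (if g = 1 then v g else 0) + (if g ∈ conjSet A then 1 else 0) -
        (if g ∈ conjSet B then 1 else 0) - (if g ∈ conjSet C then 1 else 0) -
        if g ∈ O then 1 else 0 := fun g => by
      simp only [mO]
      by_cases e1 : g ∈ conjSet A
      · simp [e1, e1.1, SS.nmem_of_coprime e1 h.cAB, SS.nmem_of_coprime e1 h.cAC, k.val g e1]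
      by_cases e2 : g ∈ conjSet B
      · simp [e1, e2, e2.1, SS.nmem_of_coprime e2 h.cBC, l.vB g e2]
      by_cases e3 : g ∈ conjSet C
      · simp [e1, e2, e3, e3.1, l.vC g e3]
      by_cases e4 : g = 1
      · subst e4; simp [e1, e2, e3]
      · rcases h.v_cases k l e4 e1 with e | e <;> simp [e1, e2, e3, e4, e]
    have b2 := k.sum0
    rw [Finset.sum_congr rfl fun g _ => b1 g] at b2
    simp only [Finset.sum_add_distrib, Finset.sum_sub_distrib, Finset.sum_boole, Finset.sum_ite_eq',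
      Finset.mem_univ, if_true, card_filter_conjSet, Finset.filter_mem_eq_inter, Finset.univ_inter,
      ho, a1] at b2
    have b3 := h.cardA
    have b4 := h.cardB
    have b5 := h.cardC
    rw [cG, h.nA] at b3
    rw [cG, h.nB] at b4
    rw [cG, h.nC] at b5
    zify at b3 b4 b5
    push_cast at b2
    rw [NZ] at b2 b3 b4 b5
    refine mul_left_cancel₀ (a := (2 * (s : ℤ) + 1) * ((4 * r₂ + 1) * (4 * r₃ + 1)) * x) (by positivity) ?_
    linear_combination -4 * ((2 * s + 1) * ((4 * r₂ + 1) * (4 * r₃ + 1))) * b2 +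
      4 * ((4 * r₂ + 1) * (4 * r₃ + 1)) * b3 - 4 * ((2 * s + 1) * (4 * r₃ + 1)) * b4 -
      4 * ((2 * s + 1) * (4 * r₂ + 1)) * b5
  have hm : (m : ℤ) = x * c := by exact_mod_cast hc
  rw [hm, a2, mul_pow, j1, one_mul] at hq
  obtain ⟨p', q', e1, e2, e3, e4⟩ := arPQ j1 (by positivity) a3
    (by rw [l.hy, l.hz, a1]; ring) hq eo
  have r2 : (2 : ℤ) ≤ r₂ := by exact_mod_cast h.lB
  have r3 : (2 : ℤ) ≤ r₃ := by exact_mod_cast h.lC
  rcases Nat.eq_zero_or_pos o with rfl | o1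
  swap
  · have b1 := l.inv t0
    have b2 : ((centralizer ({t} : Set G)).index : ℤ) = (2 * s + 1) * ((4 * r₂ + 1) * (4 * r₃ + 1)) * c := by
      have := card_mul_index (centralizer ({t} : Set G))
      rw [cG, ← hx, mul_right_comm, mul_comm] at this
      rw [Nat.eq_of_mul_eq_mul_right x0 this, Nat.cast_mul, NZ]
    rw [← l.hy, ← l.hz, b2, ← hx] at b1
    have b3 := h.leZ
    rw [hm] at b3
    have b4 : 2 * e ^ 2 + 4 * ω < 12 := by
      refine lt_of_mul_lt_mul_right (a := (2 * (s : ℤ) + 1) * ((4 * r₂ + 1) * (4 * r₃ + 1))) ?_ (by positivity)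
      have c1 : 0 < 2 * (c : ℤ) ^ 2 * ((4 * r₂ + 1) * (4 * r₃ + 1)) := by positivity
      have c2 : 0 ≤ (2 * (s : ℤ) + 1) * (4 * r₃ + 1) * y ^ 2 := by positivity
      have c3 : 0 ≤ (2 * (s : ℤ) + 1) * (4 * r₂ + 1) * z ^ 2 := by positivity
      linarith
    obtain ⟨b5, b6⟩ := arK (by omega) (by omega) (by have := h.five; omega) (by positivity)
      (by exact_mod_cast oc) (by omega) (by omega) (by positivity) b3 e1 e2 (by exact_mod_cast o1)
      (by positivity) b4 (arI (by positivity) r2 r3 (by positivity) l.y0 l.z0 l.bes b1)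
    have b7 : ∀ r : ℕ, r.Prime → r ∣ c → ∀ P : Sylow r G, IsMulCommutative (P : Subgroup G) :=
      fun r hr h1 => hab r hr (by rintro rfl; exact oc.not_two_dvd_nat h1)
        fun e => hr.one_lt.ne' (Nat.eq_one_of_dvd_coprimes ccN h1 e)
    exfalso
    rcases b6 with b6 | b6
    · exact S.false (n := Nat.card B) (by exact_mod_cast b5) o1 (by rw [h.nB]; exact_mod_cast b6)
        (by rw [h.nB]; omega) (cxN.coprime_dvd_right ((dvd_mul_left _ _).mul_right _)).symm b7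
    · exact S.false (n := Nat.card C) (by exact_mod_cast b5) o1 (by rw [h.nC]; exact_mod_cast b6)
        (by rw [h.nC]; omega) (cxN.coprime_dvd_right (dvd_mul_left _ _)).symm b7
  have O0 : ∀ g, g ∉ O := fun g hg => by
    rw [mul_zero, Finset.card_eq_zero] at ho
    simp [ho] at hg
  obtain rfl : c = 1 := by
    by_contra b1
    obtain ⟨r, hr, h1⟩ := Nat.exists_prime_and_dvd b1
    haveI := Fact.mk hr
    obtain ⟨g, hg⟩ := exists_prime_orderOf_dvd_card' (G := G) r (cG ▸ h1.mul_left _)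
    exact O0 g (memO g r hr h1 hg.symm.dvd)
  rw [e2] at e1
  have b1 : 0 ≤ (4 * (r₂ : ℤ) + 1) * p' ^ 2 := by positivity
  have b2 : 0 ≤ (4 * (r₃ : ℤ) + 1) * q' ^ 2 := by positivity
  have b3 := sq_nonneg e
  push_cast at e1 e3 e4 a3 eo
  obtain rfl : p' = 0 := by
    have : (4 * (r₂ : ℤ) + 1) * p' ^ 2 = 0 := by omega
    simpa [show 4 * (r₂ : ℤ) + 1 ≠ 0 by omega] using this
  obtain rfl : e = 0 := pow_eq_zero_iff (two_ne_zero) |>.1 (by omega)
  have w0 : ω = 0 := by omega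
  obtain rfl : j = 1 := jj.resolve_right (by
    rintro rfl
    obtain ⟨w, hw⟩ := x4
    have : (x : ℤ) - 1 = 4 * (4 * (r₂ * r₃) + r₂ + r₃) + 1 := by linarith
    omega)
  obtain rfl : y = 1 := by linarith
  obtain rfl : P = Q := by linarith
  have b4 := l.hy
  have b5 : P = (2 * s + 1) * (r₂ - r₃) := by linarith
  have b6 : (r₂ : ℤ) - r₃ ∣ x := by
    have c1 := l.hP
    rw [b5, h.cardZ, mul_assoc, mul_dvd_mul_iff_left (by positivity), hm, Nat.cast_one, mul_one] at c1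
    obtain ⟨d2, c2⟩ := l.hPB
    obtain ⟨d3, c3⟩ := l.hPC
    exact (IsCoprime.mul_right ⟨2 * (s : ℤ) + 1, -d2, by linear_combination -b5 + c2⟩
      ⟨-(2 * (s : ℤ) + 1), d3, by linear_combination b5 - c3⟩).dvd_of_dvd_mul_left c1
  have b7 := Nat.eq_prime_pow_of_unique_prime_dvd (p := 2) x0.ne' fun {r} hr h1 => by
    by_contra h2
    haveI := Fact.mk hr
    obtain ⟨g, hg⟩ := exists_prime_orderOf_dvd_card' (G := centralizer ({t} : Set G)) r h1
    rw [← orderOf_coe] at hg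
    obtain ⟨f, hf⟩ := h.sB.exists_four h.oB B0 h.wB
    have c1 : orderOf ((g : G) * t) = r * 2 := by
      rw [Commute.orderOf_mul_eq_mul_orderOf_of_coprime (mem_cent1.1 g.2)
        (by rw [hg, k.ht]; exact (Nat.coprime_primes hr Nat.prime_two).2 h2), hg, k.ht]
    have c2 := hr.two_le
    have c3 : r ≠ 4 := by rintro rfl; norm_num at hr
    have c4 : ∀ g : G, 2 ∣ orderOf g ∨ r ∣ orderOf g →
        g ≠ 1 ∧ g ∉ conjSet A ∧ g ∉ conjSet B ∧ g ∉ conjSet C := fun g e =>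
      e.elim (fun e => h.nmem Nat.prime_two e h.two_nd) fun e => h.nmem hr e
        fun e => hr.one_lt.ne' (Nat.eq_one_of_dvd_coprimes cxN h1 e)
    refine four_classes (θ₁ := p) (θ₂ := q) ![t, f, g, g * t] (fun i j e => ?_) fun χ hχ => ?_
    · replace e := orderOf_eq_of_isConj e
      fin_cases i <;> fin_cases j <;> simp [k.ht, hf, hg, c1] at e ⊢ <;> omega
    obtain ⟨a, b, c, e⟩ := l.span w0 χ hχ
    refine ⟨a, b, c, fun i => ?_⟩
    obtain ⟨g1, g2, g3, g4⟩ := c4 (![t, f, g, g * t] i) (by fin_cases i <;> simp [k.ht, hf, hg, c1])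
    exact e _ g1 g2 g3 g4 ((h.v_cases k l g1 g2).resolve_right fun e => O0 _ ((mO _).2 ⟨g1, g2, g3, g4, e⟩))
  generalize (Nat.primeFactorsList x).length = n at b7
  have b8 : (x : ℤ) = 2 ^ n := by exact_mod_cast b7
  have := arF (n1 := 2 * s + 1) (a := n) (by have := h.lA; omega) r2 r3 (by linarith) (by linarith) rfl
    (b8 ▸ b6)
  rw [← b8, ← NZ] at this
  rw [cG, mul_one]
  exact_mod_cast this

end SY

theorem not_three [IsSimpleGroup G] {A B C : Subgroup G} (sA : SS A) (sB : SS B) (sC : SS C)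
    (hnc : ∀ g : G, A.map (MulAut.conj g).toMonoidHom ≠ B ∧ A.map (MulAut.conj g).toMonoidHom ≠ C ∧
      B.map (MulAut.conj g).toMonoidHom ≠ C) (wA : aw A = 2) (wB : aw B = 4) (wC : aw C = 4)
    (nA : 5 ≤ Nat.card A) (nB : 5 < Nat.card B) (nC : 5 < Nat.card C)
    (le : Nat.card G ≤ 3 * Nat.card A ^ 2 * Nat.card B ^ 2 * Nat.card C ^ 2)
    (hab : ∀ r : ℕ, r.Prime → r ≠ 2 → ¬ r ∣ Nat.card A * Nat.card B * Nat.card C →
      ∀ P : Sylow r G, IsMulCommutative (P : Subgroup G)) : ¬ 3 ∣ Nat.card G := by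
  obtain ⟨s, r₂, r₃, m, h⟩ := exists_SY sA sB sC wA wB wC nA nB nC (sA.coprime sB fun g => (hnc g).1)
    (sA.coprime sC fun g => (hnc g).2.1) (sB.coprime sC fun g => (hnc g).2.2) le
  obtain ⟨t, a, v, j, k⟩ := sA.s1 wA nA
  obtain ⟨p, q, κ, y, z, P, Q, Y, Z, ω, l⟩ := h.s2 k
  exact h.main k l hab

end Cfsg.Agent.SSC
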